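import Cfsg.Agent.H344.RR.DiagB

/-!
# S3509, the diagonal block (helper344): every element has a regular point
-/

set_option autoImplicit false
set_option linter.unusedSectionVars false
set_option linter.style.haveILetI false

namespace Cfsg.Agent.H344.RR

open Subgroup

universe u v w

/-! ### arithmetic -/

theorem odd_primes {A : Finset ℕ} {M : ℕ} (hM : 5 ≤ M) (hA : ∀ p ∈ A, p.Prime ∧ p ≠ 2 ∧ p < M) :
    5 * A.card < 2 * M := by
  classical
  by_cases h10 : M ≤ 10
  · have h1 : A ⊆ (Finset.range M).filter (fun p => p = 3 ∨ p = 5 ∨ p = 7) := by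
      intro p hp
      obtain ⟨h2, h3, h4⟩ := hA p hp
      rw [Finset.mem_filter, Finset.mem_range]
      refine ⟨h4, ?_⟩
      have h5 : p < 10 := by omega
      interval_cases p <;> first | omega | (exfalso; revert h2; decide)
    have h2 := Finset.card_le_card h1
    interval_cases M
    · have : ((Finset.range 5).filter (fun p => p = 3 ∨ p = 5 ∨ p = 7)).card = 1 := by decide
      omega
    · have : ((Finset.range 6).filter (fun p => p = 3 ∨ p = 5 ∨ p = 7)).card = 2 := by decide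
      omega
    · have : ((Finset.range 7).filter (fun p => p = 3 ∨ p = 5 ∨ p = 7)).card = 2 := by decide
      omega
    · have : ((Finset.range 8).filter (fun p => p = 3 ∨ p = 5 ∨ p = 7)).card = 3 := by decide
      omega
    · have : ((Finset.range 9).filter (fun p => p = 3 ∨ p = 5 ∨ p = 7)).card = 3 := by decide
      omega
    · have : ((Finset.range 10).filter (fun p => p = 3 ∨ p = 5 ∨ p = 7)).card = 3 := by decide
      omega
  · have h1 : (A.erase 3).card ≤ ((Finset.Icc 1 ((M - 1) / 3))).card := by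
      refine Finset.card_le_card_of_injOn (fun p => p / 3) ?_ ?_
      · intro p hp
        have hp := Finset.mem_coe.1 hp
        rw [Finset.mem_erase] at hp
        obtain ⟨h2, h3, h4⟩ := hA p hp.2
        have h5 := h2.two_le
        show p / 3 ∈ (Finset.Icc 1 ((M - 1) / 3) : Set ℕ)
        rw [Finset.coe_Icc, Set.mem_Icc]
        have := hp.1
        omega
      · have key : ∀ p : ℕ, p.Prime → p ≠ 2 → p ≠ 3 → p % 2 = 1 ∧ p % 3 ≠ 0 := by
          intro p hp h2 h3
          refine ⟨?_, ?_⟩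
          · rcases hp.eq_two_or_odd with h | h
            · exact absurd h h2
            · exact h
          · intro h
            have := (Nat.prime_dvd_prime_iff_eq Nat.prime_three hp).1 (Nat.dvd_of_mod_eq_zero h)
            exact h3 this.symm
        intro p hp q hq hpq
        have hp := Finset.mem_erase.1 (Finset.mem_coe.1 hp)
        have hq := Finset.mem_erase.1 (Finset.mem_coe.1 hq)
        have h1 := key p (hA p hp.2).1 (hA p hp.2).2.1 hp.1
        have h2 := key q (hA q hq.2).1 (hA q hq.2).2.1 hq.1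
        have hpq : p / 3 = q / 3 := hpq
        omega
    rw [Nat.card_Icc] at h1
    have h3 : A.card ≤ (A.erase 3).card + 1 := by
      have := Finset.pred_card_le_card_erase (s := A) (a := 3)
      omega
    omega

theorem geom_two (B : Finset ℕ) (hB : ∀ p ∈ B, 2 ≤ p) : ∑ p ∈ B, (1 / 2 : ℚ) ^ p ≤ 1 / 2 := by
  have h1 : ∀ n : ℕ, ∑ i ∈ Finset.range n, (1 / 2 : ℚ) ^ (i + 2) = 1 / 2 - (1 / 2) ^ (n + 1) := by
    intro n
    induction n with
    | zero => simp
    | succ n ih => rw [Finset.sum_range_succ, ih]; ring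
  obtain ⟨N, hN⟩ : ∃ N, ∀ p ∈ B, p < N := ⟨B.sup id + 1, fun p hp => Nat.lt_succ_of_le (Finset.le_sup (f := id) hp)⟩
  have h2 : ∑ p ∈ B, (1 / 2 : ℚ) ^ p ≤ ∑ p ∈ (Finset.range N).image (· + 2), (1 / 2 : ℚ) ^ p := by
    refine Finset.sum_le_sum_of_subset_of_nonneg ?_ fun _ _ _ => by positivity
    intro p hp
    rw [Finset.mem_image]
    have := hB p hp
    have := hN p hp
    exact ⟨p - 2, Finset.mem_range.2 (by omega), by omega⟩
  rw [Finset.sum_image (by intro a _ b _ hab; exact Nat.add_right_cancel hab), h1] at h2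
  have h3 : (0 : ℚ) ≤ (1 / 2) ^ (N + 1) := by positivity
  linarith

/-- the point is fixed by an element of prime order -/
theorem exists_prime_fix {L : Type u} {Δ : Type v} [Group L] [Finite L] [MulAction L Δ] {g : L} {δ : Δ} {k : ℤ}
    (hk : g ^ k • δ = δ) (hk1 : g ^ k ≠ 1) :
    ∃ p ∈ (orderOf g).primeFactors, g ^ (orderOf g / p) • δ = δ := by
  set n := orderOf g with hn
  have hn0 : 0 < n := orderOf_pos g
  set d := Int.gcd k n with hd
  have hKd : g ^ d ∈ MulAction.stabilizer L δ := by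
    have h1 : g ^ k ∈ MulAction.stabilizer L δ := hk
    have h2 : g ^ (n : ℤ) ∈ MulAction.stabilizer L δ := by
      rw [zpow_natCast, hn, pow_orderOf_eq_one]; exact one_mem _
    have h3 : g ^ (d : ℤ) = (g ^ k) ^ (Int.gcdA k n) * (g ^ (n : ℤ)) ^ (Int.gcdB k n) := by
      rw [← zpow_mul, ← zpow_mul, ← zpow_add, hd, Int.gcd_eq_gcd_ab]
    rw [← zpow_natCast, h3]
    exact mul_mem (zpow_mem h1 _) (zpow_mem h2 _)
  have hdn : d ∣ n := by
    have := Int.gcd_dvd_right k (n : ℤ)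
    exact_mod_cast this
  have hdne : d ≠ n := by
    intro e
    apply hk1
    have h1 : (d : ℤ) ∣ k := Int.gcd_dvd_left k n
    rw [e] at h1
    exact orderOf_dvd_iff_zpow_eq_one.1 (by rw [← hn]; exact h1)
  obtain ⟨m, hm⟩ := hdn
  have hm1 : m ≠ 1 := by
    rintro rfl
    exact hdne (by rw [hm, mul_one])
  have hm0 : m ≠ 0 := by
    rintro rfl
    rw [mul_zero] at hm
    omega
  have hp := Nat.minFac_prime hm1
  obtain ⟨m', hm'⟩ := Nat.minFac_dvd m
  set p := m.minFac with hpd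
  have h4 : n = p * (d * m') := by
    rw [hm]
    conv_lhs => rw [hm']
    ring
  refine ⟨p, Nat.mem_primeFactors.2 ⟨hp, ⟨_, h4⟩, hn0.ne'⟩, ?_⟩
  have h5 : n / p = d * m' := by
    rw [h4]
    exact Nat.mul_div_cancel_left _ hp.pos
  rw [h5, pow_mul]
  exact pow_mem hKd m'

variable {L : Type u} {Δ : Type v} {ι : Type w} [Group L] [MulAction L Δ] [Fintype ι] [DecidableEq ι]
variable {T : ι → Subgroup L}

namespace DB

variable (h : DB Δ T) [Finite L] [Finite Δ] [Nonempty Δ]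
include h

theorem ten_le (i : ι) : 10 ≤ Nat.card (T i) := by
  haveI := h.hs i
  haveI : Nontrivial (T i) := IsSimpleGroup.toNontrivial
  obtain ⟨s, hs⟩ := exists_ne (1 : T i)
  have h5 : 5 ≤ (centralizer ({s} : Set (T i))).index := by
    refine Cfsg.Agent.SmallSimple.Embed.five_le_index (h.not_comm i) _ fun hT => hs ?_
    apply Subtype.ext
    refine h.center_T s.2 fun b hb => ?_
    have h6 : (⟨b, hb⟩ : T i) ∈ centralizer ({s} : Set (T i)) := by rw [hT]; exact mem_top _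
    rw [mem_centralizer_singleton_iff] at h6
    exact (congrArg Subtype.val h6).symm
  have h2 : 2 ≤ Nat.card (centralizer ({s} : Set (T i))) := by
    haveI : Nontrivial (centralizer ({s} : Set (T i))) :=
      ⟨⟨⟨s, mem_centralizer_singleton_iff.2 rfl⟩, 1, fun e => hs (congrArg Subtype.val e)⟩⟩
    exact Finite.one_lt_card
  rw [← (centralizer ({s} : Set (T i))).card_mul_index]
  calc 10 = 2 * 5 := by norm_num
    _ ≤ _ := Nat.mul_le_mul h2 h5

/-- the common bound -/
theorem exists_M [FaithfulSMul L Δ] {A : Finset ℕ} {X : ℕ → L}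
    (hX : ∀ p ∈ A, p.Prime ∧ X p ^ p = 1 ∧ X p ≠ 1 ∧ h.σ (X p) = 1 ∧ ∃ ω : Δ, X p • ω = ω)
    (hc : ∀ p q, X p * X q = X q * X p) (j : ι) :
    ∃ M, 5 ≤ M ∧ ∀ p ∈ A, p < M ∧ M ≤ (Cx T (X p) j).index := by
  rcases A.eq_empty_or_nonempty with rfl | hA
  · exact ⟨5, le_rfl, fun p hp => absurd hp (Finset.notMem_empty p)⟩
  · obtain ⟨q, hq, hmin⟩ := Finset.exists_min_image A (fun p => (Cx T (X p) j).index) hA
    obtain ⟨hq1, hq2, hq3, hq4, ω, hω⟩ := hX q hq
    refine ⟨(Cx T (X q) j).index, h.five_le hω hq3 hq4 j, fun p hp => ⟨?_, hmin p hp⟩⟩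
    obtain ⟨hp1, hp2, hp3, hp4, ω', hω'⟩ := hX p hp
    exact h.succ_le hω' hp3 hp4 hω hq3 hq4 (hc q p) hp1 hp2 j

/-- the elements moving a factor, at least three factors -/
theorem moved_le {x : L} {ω : Δ} (hω : x • ω = ω) {p : ℕ} (hp : p.Prime) (hx : x ^ p = 1) (hσ : h.σ x ≠ 1)
    (hl : 3 ≤ Fintype.card ι) : Nat.card (Fx Δ x) * 2 ^ p ≤ Nat.card Δ := by
  obtain ⟨i, hi⟩ : ∃ i, h.σ x i ≠ i := by
    by_contra hno
    push Not at hno
    exact hσ (Equiv.ext hno)
  have h10 := h.ten_le i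
  rcases hp.eq_two_or_odd with rfl | hodd
  · have h1 := h.card_fix_two hω hx hσ hl i
    refine le_trans (Nat.mul_le_mul_left _ ?_) h1
    omega
  · have h1 := (h.card_fix_moved hω hp hx hi).1
    have hp3 : 3 ≤ p := by
      have := hp.two_le
      omega
    obtain ⟨k, rfl⟩ := Nat.exists_eq_add_of_le hp3
    have h2 : Nat.card (T i) ^ (3 + k - 1) = Nat.card (T i) * Nat.card (T i) ^ (k + 1) := by
      rw [show 3 + k - 1 = (k + 1) + 1 by omega, pow_succ (Nat.card (T i)) (k + 1)]; ring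
    rw [h2] at h1
    have h3 : Nat.card (Fx Δ x) * Nat.card (T i) ^ (k + 1) ≤ Nat.card Δ := by
      have h4 : Nat.card (T i) * (Nat.card (Fx Δ x) * Nat.card (T i) ^ (k + 1)) ≤ Nat.card (T i) * Nat.card Δ := by
        calc _ = Nat.card (Fx Δ x) * (Nat.card (T i) * Nat.card (T i) ^ (k + 1)) := by ring
          _ ≤ _ := h1
      exact Nat.le_of_mul_le_mul_left h4 (Nat.card_pos (α := T i))
    refine le_trans (Nat.mul_le_mul_left _ ?_) h3
    calc 2 ^ (3 + k) = 8 * 2 ^ k := by ring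
      _ ≤ Nat.card (T i) * Nat.card (T i) ^ k := Nat.mul_le_mul (by omega) (Nat.pow_le_pow_left (by omega) k)
      _ = _ := by ring

/-- **every element has a regular point** -/
theorem main [FaithfulSMul L Δ] (hι : 2 ≤ Fintype.card ι) (g : L) :
    ∃ x : Δ, ∀ k : ℤ, g ^ k • x = x → g ^ k = 1 := by
  classical
  by_contra hno
  push Not at hno
  haveI := Fintype.ofFinite Δ
  set n := orderOf g with hn
  have hn0 : 0 < n := orderOf_pos g
  let X : ℕ → L := fun p => g ^ (n / p)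
  have hX1 : ∀ p ∈ n.primeFactors, X p ^ p = 1 := by
    intro p hp
    show (g ^ (n / p)) ^ p = 1
    rw [← pow_mul, Nat.div_mul_cancel (Nat.dvd_of_mem_primeFactors hp), hn, pow_orderOf_eq_one]
  have hX2 : ∀ p ∈ n.primeFactors, X p ≠ 1 := by
    intro p hp e
    have h1 : n ∣ n / p := orderOf_dvd_of_pow_eq_one e
    have h2 := (Nat.prime_of_mem_primeFactors hp).two_le
    have h3 : n / p < n := Nat.div_lt_self hn0 h2
    have h4 : 0 < n / p := Nat.div_pos (Nat.le_of_dvd hn0 (Nat.dvd_of_mem_primeFactors hp)) (by omega)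
    exact absurd (Nat.le_of_dvd h4 h1) (by omega)
  have hXc : ∀ p q, X p * X q = X q * X p := fun p q => by
    show g ^ (n / p) * g ^ (n / q) = g ^ (n / q) * g ^ (n / p)
    rw [← pow_add, ← pow_add, add_comm]
  set P := n.primeFactors.filter (fun p => ∃ ω : Δ, X p • ω = ω) with hP
  have hcov : ∀ δ : Δ, ∃ p ∈ P, X p • δ = δ := by
    intro δ
    obtain ⟨k, hk, hk1⟩ := hno δ
    obtain ⟨p, hp, hpδ⟩ := exists_prime_fix hk hk1
    exact ⟨p, Finset.mem_filter.2 ⟨hp, δ, hpδ⟩, hpδ⟩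
  have hsum : Nat.card Δ ≤ ∑ p ∈ P, Nat.card (Fx Δ (X p)) := by
    have h1 : (Finset.univ : Finset Δ) ⊆ P.biUnion fun p => (Fx Δ (X p)).toFinset := by
      intro δ _
      obtain ⟨p, hp, hδ⟩ := hcov δ
      rw [Finset.mem_biUnion]
      exact ⟨p, hp, Set.mem_toFinset.2 hδ⟩
    have h2 := (Finset.card_le_card h1).trans Finset.card_biUnion_le
    rw [Finset.card_univ, ← Nat.card_eq_fintype_card] at h2
    refine h2.trans (le_of_eq (Finset.sum_congr rfl fun p _ => ?_))
    rw [Set.toFinset_card, Nat.card_eq_fintype_card]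
  set A := P.filter (fun p => h.σ (X p) = 1) with hA
  set B := P.filter (fun p => ¬ h.σ (X p) = 1) with hB
  have hsplit : ∑ p ∈ P, Nat.card (Fx Δ (X p)) =
      ∑ p ∈ A, Nat.card (Fx Δ (X p)) + ∑ p ∈ B, Nat.card (Fx Δ (X p)) :=
    (Finset.sum_filter_add_sum_filter_not P _ _).symm
  have hPp : ∀ p ∈ P, p ∈ n.primeFactors ∧ ∃ ω : Δ, X p • ω = ω := fun p hp => Finset.mem_filter.1 hp
  have hAX : ∀ p ∈ A, p.Prime ∧ X p ^ p = 1 ∧ X p ≠ 1 ∧ h.σ (X p) = 1 ∧ ∃ ω : Δ, X p • ω = ω := by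
    intro p hp
    have h1 := Finset.mem_filter.1 hp
    have h2 := hPp p h1.1
    exact ⟨Nat.prime_of_mem_primeFactors h2.1, hX1 p h2.1, hX2 p h2.1, h1.2, h2.2⟩
  have hBX : ∀ p ∈ B, p.Prime ∧ X p ^ p = 1 ∧ h.σ (X p) ≠ 1 ∧ ∃ ω : Δ, X p • ω = ω := by
    intro p hp
    have h1 := Finset.mem_filter.1 hp
    have h2 := hPp p h1.1
    exact ⟨Nat.prime_of_mem_primeFactors h2.1, hX1 p h2.1, h1.2, h2.2⟩
  obtain ⟨i₀, j, hij⟩ : ∃ i₀ j : ι, i₀ ≠ j := by
    haveI : Nontrivial ι := Fintype.one_lt_card_iff_nontrivial.1 (by omega)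
    exact exists_pair_ne ι
  obtain ⟨M, hM5, hM⟩ := h.exists_M hAX hXc j
  have hAM : A.card < M := by
    have h1 : A ⊆ (Finset.range M).erase 0 := by
      intro p hp
      rw [Finset.mem_erase, Finset.mem_range]
      exact ⟨(hAX p hp).1.ne_zero, (hM p hp).1⟩
    have h2 := Finset.card_le_card h1
    rw [Finset.card_erase_of_mem (Finset.mem_range.2 (by omega)), Finset.card_range] at h2
    omega
  have hΔ : 0 < Nat.card Δ := Nat.card_pos
  have hpos : ∀ p ∈ A, ∀ i, 1 ≤ (Cx T (X p) i).index := fun p _ i =>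
    Nat.one_le_iff_ne_zero.2 (Subgroup.index_ne_zero_of_finite)
  rcases Nat.lt_or_ge (Fintype.card ι) 3 with hl | hl
  · -- two factors
    have hl2 : Fintype.card ι = 2 := by omega
    have hAF : ∀ p ∈ A, Nat.card (Fx Δ (X p)) * M ≤ Nat.card Δ := by
      intro p hp
      obtain ⟨h1, h2, h3, h4, ω, hω⟩ := hAX p hp
      refine le_trans (Nat.mul_le_mul_left _ ?_) (h.card_fix_id hω h4 i₀)
      rw [← Finset.mul_prod_erase _ _ (Finset.mem_erase.2 ⟨hij.symm, Finset.mem_univ j⟩)]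
      calc M = M * 1 := (mul_one M).symm
        _ ≤ _ := Nat.mul_le_mul (hM p hp).2 (Finset.one_le_prod' fun i _ => hpos p hp i)
    have hSA : (∑ p ∈ A, Nat.card (Fx Δ (X p))) * M ≤ A.card * Nat.card Δ := by
      rw [Finset.sum_mul, ← smul_eq_mul (A.card), ← Finset.sum_const]
      exact Finset.sum_le_sum hAF
    have hB2 : ∀ p ∈ B, p = 2 ∧ 5 * Nat.card (Fx Δ (X p)) ≤ 3 * Nat.card Δ := by
      intro p hp
      obtain ⟨h1, h2, h3, ω, hω⟩ := hBX p hp
      obtain ⟨i, hi⟩ : ∃ i, h.σ (X p) i ≠ i := by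
        by_contra hno'
        push Not at hno'
        exact h3 (Equiv.ext hno')
      have h4 := (h.card_fix_moved hω h1 h2 hi).2
      have h5 := h1.two_le
      exact ⟨by omega, h.card_fix_swap hω hi hl2⟩
    rcases B.eq_empty_or_nonempty with hBe | ⟨q, hq⟩
    · rw [hsplit, hBe, Finset.sum_empty, add_zero] at hsum
      have h1 : Nat.card Δ * M ≤ A.card * Nat.card Δ := (Nat.mul_le_mul_right M hsum).trans hSA
      rw [mul_comm] at h1
      exact absurd (Nat.le_of_mul_le_mul_right h1 hΔ) (by omega)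
    · have hq2 := hB2 q hq
      have hBq : B = {q} := by
        ext p
        rw [Finset.mem_singleton]
        refine ⟨fun hp => ?_, fun e => e ▸ hq⟩
        rw [(hB2 p hp).1, hq2.1]
      rw [hsplit, hBq, Finset.sum_singleton] at hsum
      have h5 : 5 * A.card < 2 * M := by
        refine odd_primes hM5 fun p hp => ⟨(hAX p hp).1, ?_, (hM p hp).1⟩
        intro e
        have h6 : p ∈ B := by rw [e, ← hq2.1]; exact hq
        exact (hBX p h6).2.2.1 (hAX p hp).2.2.2.1
      -- 5 M |Δ| ≤ 5 M ΣA + 5 M F ≤ 5 |A| |Δ| + 3 M |Δ| < 5 M |Δ|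
      set a := ∑ p ∈ A, Nat.card (Fx Δ (X p)) with ha
      set f := Nat.card (Fx Δ (X q)) with hf
      set D := Nat.card Δ with hD
      have h7 : 5 * M * D ≤ 5 * (a * M) + M * (5 * f) := by
        calc 5 * M * D ≤ 5 * M * (a + f) := Nat.mul_le_mul_left _ hsum
          _ = _ := by ring
      have h8 : 5 * M * D ≤ 5 * (A.card * D) + M * (3 * D) :=
        h7.trans (Nat.add_le_add (Nat.mul_le_mul_left 5 hSA) (Nat.mul_le_mul_left M hq2.2))
      have h9 : (5 * M) * D ≤ (5 * A.card + 3 * M) * D := by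
        calc _ ≤ _ := h8
          _ = _ := by ring
      exact absurd (Nat.le_of_mul_le_mul_right h9 hΔ) (by omega)
  · -- at least three factors
    obtain ⟨j', hj'⟩ : ∃ j', j' ∉ ({i₀, j} : Finset ι) := by
      by_contra hno'
      push Not at hno'
      have h2 : Fintype.card ι ≤ ({i₀, j} : Finset ι).card := by
        rw [← Finset.card_univ]
        exact Finset.card_le_card fun i _ => hno' i
      have h3 := Finset.card_le_two (a := i₀) (b := j)
      omega
    rw [Finset.mem_insert, Finset.mem_singleton, not_or] at hj'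
    have hAF : ∀ p ∈ A, Nat.card (Fx Δ (X p)) * (5 * M) ≤ Nat.card Δ := by
      intro p hp
      obtain ⟨h1, h2, h3, h4, ω, hω⟩ := hAX p hp
      refine le_trans (Nat.mul_le_mul_left _ ?_) (h.card_fix_id hω h4 i₀)
      rw [← Finset.mul_prod_erase _ _ (Finset.mem_erase.2 ⟨hij.symm, Finset.mem_univ j⟩),
        ← Finset.mul_prod_erase _ _ (Finset.mem_erase.2 ⟨hj'.2, Finset.mem_erase.2 ⟨hj'.1, Finset.mem_univ j'⟩⟩)]
      calc 5 * M = M * (5 * 1) := by ring
        _ ≤ _ := Nat.mul_le_mul (hM p hp).2 (Nat.mul_le_mul (h.five_le hω h3 h4 j')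
          (Finset.one_le_prod' fun i _ => hpos p hp i))
    have hSA : (∑ p ∈ A, Nat.card (Fx Δ (X p))) * (5 * M) ≤ A.card * Nat.card Δ := by
      rw [Finset.sum_mul, ← smul_eq_mul (A.card), ← Finset.sum_const]
      exact Finset.sum_le_sum hAF
    have hSA' : 5 * ∑ p ∈ A, Nat.card (Fx Δ (X p)) ≤ Nat.card Δ := by
      have hM0 : 0 < M := by omega
      have h1 : (5 * ∑ p ∈ A, Nat.card (Fx Δ (X p))) * M ≤ Nat.card Δ * M := by
        calc _ = (∑ p ∈ A, Nat.card (Fx Δ (X p))) * (5 * M) := by ring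
          _ ≤ A.card * Nat.card Δ := hSA
          _ ≤ M * Nat.card Δ := Nat.mul_le_mul_right _ hAM.le
          _ = _ := by ring
      exact Nat.le_of_mul_le_mul_right h1 hM0
    have hSB : 2 * ∑ p ∈ B, Nat.card (Fx Δ (X p)) ≤ Nat.card Δ := by
      have h1 : ∀ p ∈ B, (Nat.card (Fx Δ (X p)) : ℚ) ≤ (1 / 2) ^ p * Nat.card Δ := by
        intro p hp
        obtain ⟨h1, h2, h3, ω, hω⟩ := hBX p hp
        have h4 := h.moved_le hω h1 h2 h3 hl
        have h5 : (Nat.card (Fx Δ (X p)) : ℚ) * 2 ^ p ≤ Nat.card Δ := by exact_mod_cast h4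
        rw [one_div, inv_pow, ← div_eq_inv_mul, le_div_iff₀ (by positivity)]
        exact h5
      have h2 : ((∑ p ∈ B, Nat.card (Fx Δ (X p)) : ℕ) : ℚ) ≤ 1 / 2 * Nat.card Δ := by
        rw [Nat.cast_sum]
        calc _ ≤ ∑ p ∈ B, (1 / 2 : ℚ) ^ p * Nat.card Δ := Finset.sum_le_sum h1
          _ = (∑ p ∈ B, (1 / 2 : ℚ) ^ p) * Nat.card Δ := by rw [Finset.sum_mul]
          _ ≤ _ := mul_le_mul_of_nonneg_right (geom_two B fun p hp => (hBX p hp).1.two_le) (by positivity)
      have h3 : (2 : ℚ) * ((∑ p ∈ B, Nat.card (Fx Δ (X p)) : ℕ) : ℚ) ≤ Nat.card Δ := by linarith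
      exact_mod_cast h3
    rw [hsplit] at hsum
    omega

end DB

/-- **S3509, box B3**: the diagonal block -/
theorem diag_reg {L Δ : Type*} [Group L] [Finite L] [MulAction L Δ] [FaithfulSMul L Δ] [Finite Δ] [Nonempty Δ]
    {ι : Type*} [Fintype ι] [DecidableEq ι] (hι : 2 ≤ Fintype.card ι) (T : ι → Subgroup L)
    (hs : ∀ i, IsSimpleGroup (T i)) (hna : ∀ i, ∃ a b : T i, a * b ≠ b * a) (hinj : Function.Injective T)
    (hcomm : ∀ i j, i ≠ j → ∀ a ∈ T i, ∀ b ∈ T j, Commute a b)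
    (hconj : ∀ (x : L) (i : ι), ∃ j, T j = (T i).map (MulAut.conj x).toMonoidHom)
    (htr : ∀ (i : ι) (x y : Δ), ∃ t ∈ (⨆ j : {j // j ≠ i}, T j), t • x = y)
    (hreg : ∀ i : ι, ∀ t ∈ (⨆ j : {j // j ≠ i}, T j), ∀ x : Δ, t • x = x → t = 1) (g : L) :
    ∃ x : Δ, ∀ k : ℤ, g ^ k • x = x → g ^ k = 1 :=
  DB.main (T := T) ⟨hs, hna, hinj, hcomm, hconj, htr, hreg⟩ hι g

end Cfsg.Agent.H344.RR

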