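import Mathlib

/-!
# S3509, the diagonal block (helper344): coordinates

A family of commuting simple nonabelian subgroups `T i` of `L`, permuted by `L`, such that for every `i` the product of
the `T j`, `j ≠ i`, is regular on `Δ`.
-/

set_option autoImplicit false
set_option linter.unusedSectionVars false

namespace Cfsg.Agent.H344.RR

open Subgroup

universe u v w

variable {L : Type u} {Δ : Type v} {ι : Type w} [Group L] [MulAction L Δ] [Fintype ι] [DecidableEq ι]

/-- the hypotheses -/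
structure DB (Δ : Type v) [MulAction L Δ] (T : ι → Subgroup L) : Prop where
  hs : ∀ i, IsSimpleGroup (T i)
  hna : ∀ i, ∃ a b : T i, a * b ≠ b * a
  hinj : Function.Injective T
  hcomm : ∀ i j : ι, i ≠ j → ∀ a ∈ T i, ∀ b ∈ T j, Commute a b
  hconj : ∀ (x : L) (i : ι), ∃ j, T j = (T i).map (MulAut.conj x).toMonoidHom
  htr : ∀ (i : ι) (x y : Δ), ∃ t ∈ (⨆ j : {j // j ≠ i}, T j), t • x = y
  hreg : ∀ i : ι, ∀ t ∈ (⨆ j : {j // j ≠ i}, T j), ∀ x : Δ, t • x = x → t = 1

namespace DB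

variable {T : ι → Subgroup L} (h : DB Δ T)
include h

theorem pair : Pairwise fun i j : ι => ∀ x y : L, x ∈ T i → y ∈ T j → Commute x y :=
  fun i j hij x y hx hy => h.hcomm i j hij x hx y hy

omit h in
/-- the product -/
noncomputable def φ (h : DB Δ T) : (∀ i, T i) →* L := Subgroup.noncommPiCoprod h.pair

theorem φ_single (i : ι) (y : T i) : h.φ (Pi.mulSingle i y) = y := Subgroup.noncommPiCoprod_mulSingle i y

theorem φ_mem {m : ∀ i, T i} {i : ι} (hm : m i = 1) : h.φ m ∈ (⨆ j : {j // j ≠ i}, T j) := by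
  unfold φ
  rw [Subgroup.noncommPiCoprod_apply]
  refine Subgroup.noncommProd_mem _ _ fun c _ => ?_
  by_cases hc : c = i
  · subst hc
    rw [hm]
    exact one_mem _
  · exact (le_iSup (fun j : {j // j ≠ i} => T j) ⟨c, hc⟩) (m c).2

theorem exists_φ {t : L} {i : ι} (ht : t ∈ (⨆ j : {j // j ≠ i}, T j)) : ∃ m : ∀ i, T i, m i = 1 ∧ h.φ m = t := by
  have h1 : (⨆ j : {j // j ≠ i}, T j) ≤ ((Pi.evalMonoidHom (fun i => T i) i).ker).map h.φ := by
    refine iSup_le fun j => ?_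
    intro y hy
    refine ⟨Pi.mulSingle (j : ι) ⟨y, hy⟩, ?_, h.φ_single _ _⟩
    exact Pi.mulSingle_eq_of_ne (Ne.symm j.2) _
  obtain ⟨m, hm, rfl⟩ := h1 ht
  exact ⟨m, hm, rfl⟩

theorem center_T {i : ι} {a : L} (ha : a ∈ T i) (hc : ∀ b ∈ T i, Commute a b) : a = 1 := by
  haveI := h.hs i
  have h1 : (⟨a, ha⟩ : T i) ∈ center (T i) := by
    rw [mem_center_iff]
    intro b
    exact Subtype.ext (hc b b.2).eq.symm
  rcases (inferInstance : (center (T i)).Normal).eq_bot_or_eq_top with h2 | h2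
  · rw [h2, mem_bot] at h1
    exact congrArg Subtype.val h1
  · exfalso
    obtain ⟨x, y, hxy⟩ := h.hna i
    apply hxy
    have : x ∈ center (T i) := by rw [h2]; exact mem_top x
    exact (mem_center_iff.1 this y).symm

theorem comm_sup {i : ι} {a t : L} (ha : a ∈ T i) (ht : t ∈ (⨆ j : {j // j ≠ i}, T j)) : Commute a t := by
  have h1 : (⨆ j : {j // j ≠ i}, T j) ≤ centralizer ({a} : Set L) := by
    refine iSup_le fun j => ?_
    intro y hy
    rw [mem_centralizer_singleton_iff]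
    exact (h.hcomm j i j.2 y hy a ha).eq
  exact (mem_centralizer_singleton_iff.1 (h1 ht)).symm

theorem φ_inj : Function.Injective h.φ := by
  refine Subgroup.injective_noncommPiCoprod_of_iSupIndep ?_
  intro i
  rw [disjoint_iff]
  rw [eq_bot_iff]
  rintro a ⟨ha, ha'⟩
  rw [iSup_subtype'] at ha'
  rw [mem_bot]
  refine h.center_T ha fun b hb => (h.comm_sup hb ha').symm

/-- the stabilizer of a point meets the partial products trivially -/
theorem eq_one_of_fix {m : ∀ i, T i} {i : ι} (hm : m i = 1) {ω : Δ} (hω : h.φ m • ω = ω) : m = 1 := by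
  have h1 := h.hreg i _ (h.φ_mem hm) ω hω
  exact h.φ_inj (by rw [h1, map_one])

theorem eq_of_fix {m n : ∀ i, T i} {i : ι} (hmn : m i = n i) {ω : Δ} (h1 : h.φ m • ω = ω) (h2 : h.φ n • ω = ω) :
    m = n := by
  have h3 : h.φ (m⁻¹ * n) • ω = ω := by
    rw [map_mul, map_inv, mul_smul, h2, inv_smul_eq_iff, h1]
  have h4 := h.eq_one_of_fix (m := m⁻¹ * n) (i := i) (by rw [Pi.mul_apply, Pi.inv_apply, hmn, inv_mul_cancel]) h3
  exact inv_mul_eq_one.1 h4

/-- the bijection `m ↦ (m i, m ω)` -/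
theorem bij (i : ι) (ω : Δ) : Function.Bijective (fun m : ∀ i, T i => (m i, h.φ m • ω)) := by
  constructor
  · intro m n hmn
    have h1 : m i = n i := congrArg Prod.fst hmn
    have h2 : h.φ m • ω = h.φ n • ω := congrArg Prod.snd hmn
    have h3 : h.φ (n⁻¹ * m) • ω = ω := by rw [map_mul, map_inv, mul_smul, h2, inv_smul_smul]
    have h4 := h.eq_one_of_fix (m := n⁻¹ * m) (i := i) (by rw [Pi.mul_apply, Pi.inv_apply, h1, inv_mul_cancel]) h3
    exact (inv_mul_eq_one.1 h4).symm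
  · rintro ⟨a, δ⟩
    obtain ⟨t, ht, ht'⟩ := h.htr i ω ((a : L)⁻¹ • δ)
    obtain ⟨m, hm, rfl⟩ := h.exists_φ ht
    refine ⟨Pi.mulSingle i a * m, ?_⟩
    rw [Prod.mk.injEq]
    refine ⟨?_, ?_⟩
    · rw [Pi.mul_apply, Pi.mulSingle_eq_same, hm, mul_one]
    · rw [map_mul, h.φ_single, mul_smul, ht', smul_inv_smul]

theorem exists_coord (i : ι) (ω δ : Δ) : ∃ m : ∀ i, T i, m i = 1 ∧ h.φ m • ω = δ := by
  obtain ⟨t, ht, ht'⟩ := h.htr i ω δ
  obtain ⟨m, hm, rfl⟩ := h.exists_φ ht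
  exact ⟨m, hm, ht'⟩

theorem card_mul [Finite L] [Finite Δ] [Nonempty Δ] (i : ι) :
    Nat.card (T i) * Nat.card Δ = ∏ j, Nat.card (T j) := by
  obtain ⟨ω⟩ := ‹Nonempty Δ›
  rw [← Nat.card_prod, ← Nat.card_pi]
  exact (Nat.card_congr (Equiv.ofBijective _ (h.bij i ω))).symm

theorem card_eq [Finite L] [Finite Δ] [Nonempty Δ] (i j : ι) : Nat.card (T i) = Nat.card (T j) := by
  have h1 := h.card_mul i
  rw [← h.card_mul j] at h1
  exact Nat.eq_of_mul_eq_mul_right Nat.card_pos h1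

theorem card_pow [Finite L] [Finite Δ] [Nonempty Δ] (i : ι) :
    Nat.card (T i) * Nat.card Δ = Nat.card (T i) ^ Fintype.card ι := by
  rw [h.card_mul i, Finset.prod_congr rfl fun j _ => h.card_eq j i, Finset.prod_const, Finset.card_univ]

/-! ### conjugation -/

omit h in
/-- the permutation of the indices, as a function -/
noncomputable def sf (h : DB Δ T) (x : L) (i : ι) : ι := (h.hconj x i).choose

theorem sf_spec (x : L) (i : ι) : T (h.sf x i) = (T i).map (MulAut.conj x).toMonoidHom := (h.hconj x i).choose_spec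

theorem sf_inj (x : L) : Function.Injective (h.sf x) := by
  intro i j hij
  apply h.hinj
  have h1 := h.sf_spec x i
  rw [hij, h.sf_spec x j] at h1
  exact (Subgroup.map_injective (MulAut.conj x).injective h1).symm

omit h in
/-- the permutation of the indices -/
noncomputable def σ (h : DB Δ T) (x : L) : Equiv.Perm ι :=
  Equiv.ofBijective (h.sf x) (Finite.injective_iff_bijective.1 (h.sf_inj x))

theorem σ_spec (x : L) (i : ι) : T (h.σ x i) = (T i).map (MulAut.conj x).toMonoidHom := h.sf_spec x i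

theorem σ_eq {x : L} {i j : ι} (hj : T j = (T i).map (MulAut.conj x).toMonoidHom) : h.σ x i = j :=
  h.hinj (by rw [h.σ_spec, hj])

theorem σ_mul (x y : L) : h.σ (x * y) = h.σ x * h.σ y := by
  ext i
  apply h.σ_eq
  rw [Equiv.Perm.mul_apply, h.σ_spec, h.σ_spec, Subgroup.map_map]
  congr 1
  ext a
  simp [mul_assoc]

theorem σ_one : h.σ 1 = 1 := by
  have := h.σ_mul 1 1
  rw [one_mul] at this
  exact (mul_eq_right.1 this.symm)

theorem σ_pow (x : L) (n : ℕ) : h.σ (x ^ n) = h.σ x ^ n := by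
  induction n with
  | zero => rw [pow_zero, pow_zero, h.σ_one]
  | succ n ih => rw [pow_succ, h.σ_mul, ih, pow_succ]

theorem conj_mem (x : L) {i : ι} {a : L} (ha : a ∈ T i) : x * a * x⁻¹ ∈ T (h.σ x i) := by
  rw [h.σ_spec]
  exact ⟨a, ha, rfl⟩

omit h in
/-- conjugation on the coordinates -/
noncomputable def ψ (h : DB Δ T) (x : L) : (∀ i, T i) →* (∀ i, T i) where
  toFun m i := ⟨x * m ((h.σ x).symm i) * x⁻¹, by
    have := h.conj_mem x (m ((h.σ x).symm i)).2
    rwa [Equiv.apply_symm_apply] at this⟩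
  map_one' := by
    funext i
    apply Subtype.ext
    show x * ((1 : ∀ i, T i) ((h.σ x).symm i) : L) * x⁻¹ = 1
    rw [Pi.one_apply, Subgroup.coe_one, mul_one, mul_inv_cancel]
  map_mul' m n := by
    funext i
    apply Subtype.ext
    show x * ((m * n) ((h.σ x).symm i) : L) * x⁻¹ = x * m ((h.σ x).symm i) * x⁻¹ * (x * n ((h.σ x).symm i) * x⁻¹)
    rw [Pi.mul_apply, Subgroup.coe_mul]
    group

theorem ψ_apply (x : L) (m : ∀ i, T i) (i : ι) : ((h.ψ x m i : T i) : L) = x * m ((h.σ x).symm i) * x⁻¹ := rfl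

theorem ψ_σ (x : L) (m : ∀ i, T i) (i : ι) : ((h.ψ x m (h.σ x i) : T (h.σ x i)) : L) = x * m i * x⁻¹ := by
  rw [h.ψ_apply, Equiv.symm_apply_apply]

theorem φ_ψ (x : L) (m : ∀ i, T i) : h.φ (h.ψ x m) = x * h.φ m * x⁻¹ := by
  have h1 : h.φ.comp (h.ψ x) = (MulAut.conj x).toMonoidHom.comp h.φ := by
    refine MonoidHom.pi_ext fun i a => ?_
    show h.φ (h.ψ x (Pi.mulSingle i a)) = x * h.φ (Pi.mulSingle i a) * x⁻¹
    have h2 : h.ψ x (Pi.mulSingle i a) = Pi.mulSingle (h.σ x i) ⟨x * a * x⁻¹, h.conj_mem x a.2⟩ := by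
      funext j
      apply Subtype.ext
      by_cases hj : j = h.σ x i
      · subst hj
        rw [h.ψ_σ, Pi.mulSingle_eq_same, Pi.mulSingle_eq_same]
      · rw [Pi.mulSingle_eq_of_ne hj, h.ψ_apply, Pi.mulSingle_eq_of_ne, Subgroup.coe_one, mul_one, mul_inv_cancel,
          Subgroup.coe_one]
        intro e
        apply hj
        rw [← e, Equiv.apply_symm_apply]
    rw [h2, h.φ_single, h.φ_single]
  exact DFunLike.congr_fun h1 m

theorem smul_φ {x : L} {ω : Δ} (hω : x • ω = ω) (m : ∀ i, T i) : x • h.φ m • ω = h.φ (h.ψ x m) • ω := by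
  rw [h.φ_ψ, mul_smul, mul_smul, inv_smul_eq_iff.2 hω.symm]

/-- the defect of a fixed point -/
theorem defect {x : L} {ω : Δ} (hω : x • ω = ω) {m : ∀ i, T i} (hm : x • h.φ m • ω = h.φ m • ω) :
    h.φ (m⁻¹ * h.ψ x m) • ω = ω := by
  rw [map_mul, mul_smul, ← h.smul_φ hω, hm, map_inv, inv_smul_smul]

theorem ψ_fix {x : L} {ω : Δ} (hω : x • ω = ω) {k : ∀ i, T i} (hk : h.φ k • ω = ω) : h.φ (h.ψ x k) • ω = ω := by
  rw [← h.smul_φ hω, hk, hω]

end DB

end Cfsg.Agent.H344.RR
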