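import Cfsg.Agent.H344.RR.DiagA
import Cfsg.Agent.SmallSimple.Embed

/-!
# S3509, the diagonal block (helper344): the number of fixed points
-/

set_option autoImplicit false
set_option linter.unusedSectionVars false
set_option linter.style.haveILetI false

namespace Cfsg.Agent.H344.RR

open Subgroup

universe u v w

/-! ### an abstract lemma -/

section abs

/-- **the class lemma** -/
theorem class_lemma {L : Type u} [Group L] [Finite L] {S : Subgroup L} [hs : IsSimpleGroup S] {a x : L} {p : ℕ}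
    (hp : p.Prime) (hxp : x ^ p = 1) (hxS : ∀ s ∈ S, x * s * x⁻¹ ∈ S) (hax : a * x = x * a)
    (hx : ¬ ∀ s ∈ S, x * s = s * x) (ha : ¬ ∀ s ∈ S, a * s = s * a) :
    p + 1 ≤ ((centralizer ({a} : Set L)).subgroupOf S).index := by
  classical
  set C := (centralizer ({a} : Set L)).subgroupOf S with hC
  have memC : ∀ s : S, s ∈ C ↔ (s : L) * a = a * s := fun s => by
    rw [hC, mem_subgroupOf, mem_centralizer_singleton_iff]
  let c : S →* S :=
    { toFun := fun s => ⟨x * s * x⁻¹, hxS s s.2⟩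
      map_one' := Subtype.ext (by show x * ((1 : S) : L) * x⁻¹ = 1; rw [coe_one, mul_one, mul_inv_cancel])
      map_mul' := fun s t => Subtype.ext (by
        show x * ((s * t : S) : L) * x⁻¹ = x * s * x⁻¹ * (x * t * x⁻¹)
        rw [coe_mul]; group) }
  have hc : ∀ s : S, ((c s : S) : L) = x * s * x⁻¹ := fun s => rfl
  have hax' : a * x⁻¹ = x⁻¹ * a := (show Commute a x from hax).inv_right.eq
  have cC : ∀ s ∈ C, c s ∈ C := by
    intro s hs'
    rw [memC] at hs' ⊢
    rw [hc]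
    calc x * s * x⁻¹ * a = x * s * (x⁻¹ * a) := by group
      _ = x * (s * a) * x⁻¹ := by rw [← hax']; group
      _ = x * a * s * x⁻¹ := by rw [hs']; group
      _ = a * (x * s * x⁻¹) := by rw [← hax]; group
  let f : S ⧸ C → S ⧸ C := Quotient.map' c (by
    intro s t hst
    rw [QuotientGroup.leftRel_apply] at hst ⊢
    rw [← map_inv, ← map_mul]
    exact cC _ hst)
  have hf : ∀ s : S, f (s : S ⧸ C) = ((c s : S) : S ⧸ C) := fun s => rfl
  have hfn : ∀ (n : ℕ) (s : S), f^[n] (s : S ⧸ C) = ((c^[n] s : S) : S ⧸ C) := by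
    intro n
    induction n with
    | zero => intro s; rfl
    | succ n ih => intro s; rw [Function.iterate_succ_apply, Function.iterate_succ_apply, hf, ih]
  have hcn : ∀ (n : ℕ) (s : S), ((c^[n] s : S) : L) = x ^ n * s * (x ^ n)⁻¹ := by
    intro n
    induction n with
    | zero => intro s; simp
    | succ n ih => intro s; rw [Function.iterate_succ_apply, ih, hc, pow_succ]; group
  have hfp : ∀ q : S ⧸ C, f^[p] q = q := by
    intro q
    obtain ⟨s, rfl⟩ := QuotientGroup.mk_surjective q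
    rw [hfn]
    congr 1
    apply Subtype.ext
    rw [hcn, hxp]
    group
  have hq0 : f ((1 : S) : S ⧸ C) = ((1 : S) : S ⧸ C) := by rw [hf, map_one]
  -- a moved coset
  obtain ⟨q, hq⟩ : ∃ q, f q ≠ q := by
    by_contra hno
    push Not at hno
    let W : Set S := Set.range fun s : S => s⁻¹ * c s
    have hWC : closure W ≤ C := by
      rw [closure_le]
      rintro _ ⟨s, rfl⟩
      have h1 := hno (s : S ⧸ C)
      rw [hf] at h1
      exact QuotientGroup.eq.1 h1.symm
    have hWn : (closure W).Normal := by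
      constructor
      intro y hy t
      refine Subgroup.closure_induction (p := fun y _ => t * y * t⁻¹ ∈ closure W) ?_ ?_ ?_ ?_ hy
      · rintro _ ⟨s, rfl⟩
        have h1 : t * (s⁻¹ * c s) * t⁻¹ = ((s * t⁻¹)⁻¹ * c (s * t⁻¹)) * ((t⁻¹)⁻¹ * c t⁻¹)⁻¹ := by
          rw [map_mul]; group
        show t * (s⁻¹ * c s) * t⁻¹ ∈ closure W
        rw [h1]
        exact mul_mem (subset_closure ⟨_, rfl⟩) (inv_mem (subset_closure ⟨_, rfl⟩))
      · rw [mul_one, mul_inv_cancel]; exact one_mem _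
      · intro y z _ _ h1 h2
        have : t * (y * z) * t⁻¹ = (t * y * t⁻¹) * (t * z * t⁻¹) := by group
        rw [this]; exact mul_mem h1 h2
      · intro y _ h1
        have : t * y⁻¹ * t⁻¹ = (t * y * t⁻¹)⁻¹ := by group
        rw [this]; exact inv_mem h1
    rcases hWn.eq_bot_or_eq_top with h1 | h1
    · apply hx
      intro s hs'
      have h2 : (⟨s, hs'⟩ : S)⁻¹ * c ⟨s, hs'⟩ ∈ closure W := subset_closure ⟨_, rfl⟩
      rw [h1, mem_bot] at h2
      have h3 := congrArg Subtype.val (inv_mul_eq_one.1 h2)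
      have h4 : s = x * s * x⁻¹ := h3
      exact (mul_inv_eq_iff_eq_mul.1 h4.symm)
    · apply ha
      intro s hs'
      have h2 : (⟨s, hs'⟩ : S) ∈ C := hWC (by rw [h1]; exact mem_top _)
      exact ((memC _).1 h2).symm
  have hmp : Function.minimalPeriod f q = p := by
    have h1 : Function.minimalPeriod f q ∣ p := Function.IsPeriodicPt.minimalPeriod_dvd (hfp q)
    rcases (Nat.dvd_prime hp).1 h1 with h2 | h2
    · exact absurd (Function.minimalPeriod_eq_one_iff_isFixedPt.1 h2) hq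
    · exact h2
  have hinj := Function.iterate_injOn_Iio_minimalPeriod (f := f) (x := q)
  rw [hmp] at hinj
  have hne : ∀ k < p, f^[k] q ≠ ((1 : S) : S ⧸ C) := by
    intro k hk h1
    apply hq
    have h2 : f^[p - k] (f^[k] q) = q := by
      rw [← Function.iterate_add_apply, Nat.sub_add_cancel hk.le, hfp]
    have h3 : ∀ n, f^[n] ((1 : S) : S ⧸ C) = ((1 : S) : S ⧸ C) := by
      intro n
      exact Function.iterate_fixed hq0 n
    rw [h1, h3] at h2
    rw [← h2, hq0]
  have hfin : Finite (S ⧸ C) := inferInstance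
  have := Fintype.ofFinite (S ⧸ C)
  rw [Subgroup.index_eq_card, Nat.card_eq_fintype_card]
  have h5 : (insert ((1 : S) : S ⧸ C) ((Finset.range p).image (fun k => f^[k] q))).card = p + 1 := by
    rw [Finset.card_insert_of_notMem, Finset.card_image_of_injOn, Finset.card_range]
    · intro a ha b hb hab
      exact hinj (Finset.mem_range.1 ha) (Finset.mem_range.1 hb) hab
    · rw [Finset.mem_image]
      rintro ⟨k, hk, hk'⟩
      exact hne k (Finset.mem_range.1 hk) hk'
  rw [← h5]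
  exact Finset.card_le_univ _

/-- elements inverted by an automorphism -/
theorem three_fifths {S : Type u} [Group S] [Finite S] (A : Set S) (hA : ∀ s ∈ A, ∀ t ∈ A, s * t ∈ A → s * t = t * s)
    (h2 : 2 ≤ Nat.card S) (hC : ∀ s : S, s ≠ 1 → 5 * Nat.card (centralizer ({s} : Set S)) ≤ Nat.card S) :
    5 * Nat.card A ≤ 3 * Nat.card S := by
  classical
  have := Fintype.ofFinite S
  by_cases h : ∃ s ∈ A, s ≠ 1
  · obtain ⟨s, hs, hs1⟩ := h
    have h1 := hC s hs1
    let B : Finset S := A.toFinset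
    have hB : B.card = Nat.card A := by
      rw [Nat.card_eq_fintype_card, ← Set.toFinset_card]
    have h3 : (B ∩ B.image (fun t => s⁻¹ * t)).card ≤ Nat.card (centralizer ({s} : Set S)) := by
      have e1 : Nat.card (centralizer ({s} : Set S)) = ((centralizer ({s} : Set S) : Set S).toFinset).card := by
        rw [Set.toFinset_card, ← Nat.card_eq_fintype_card]; rfl
      rw [e1]
      apply Finset.card_le_card
      intro t ht
      rw [Finset.mem_inter, Finset.mem_image] at ht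
      obtain ⟨ht1, t', ht2, rfl⟩ := ht
      rw [Set.mem_toFinset] at ht1 ht2
      rw [Set.mem_toFinset, SetLike.mem_coe, mem_centralizer_singleton_iff]
      exact (hA s hs _ ht1 (by rw [mul_inv_cancel_left]; exact ht2)).symm
    have h4 : (B ∪ B.image (fun t => s⁻¹ * t)).card ≤ Nat.card S := by
      rw [Nat.card_eq_fintype_card]; exact Finset.card_le_univ _
    have h5 := Finset.card_union_add_card_inter B (B.image (fun t => s⁻¹ * t))
    rw [Finset.card_image_of_injective _ (mul_right_injective s⁻¹), hB] at h5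
    omega
  · push Not at h
    have h3 : Nat.card A ≤ 1 := by
      rw [Finite.card_le_one_iff_subsingleton]
      exact ⟨fun a b => Subtype.ext ((h a a.2).trans (h b b.2).symm)⟩
    omega

/-- the permutation lemma for an orbit of prime length -/
theorem comb_p {ι : Type w} [Fintype ι] [DecidableEq ι] {σ : Equiv.Perm ι} {p : ℕ} (hp : p.Prime) (hσ : σ ^ p = 1)
    {i₀ : ι} (h0 : σ i₀ ≠ i₀) : ∃ S : Finset ι, σ i₀ ∈ S ∧
      (∀ A : Set ι, (∀ i ∈ A, σ i ∈ A) → i₀ ∈ A → (∀ s ∈ S, s ∈ A) → ∀ i, i ∈ A) ∧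
      S.card + (p - 1) = Fintype.card ι := by
  have hfp : ∀ q : ι, (σ : ι → ι)^[p] q = q := by
    intro q
    rw [← Equiv.Perm.coe_pow, hσ]; rfl
  have hmp : Function.minimalPeriod (σ : ι → ι) i₀ = p := by
    have h1 : Function.minimalPeriod (σ : ι → ι) i₀ ∣ p := Function.IsPeriodicPt.minimalPeriod_dvd (hfp i₀)
    rcases (Nat.dvd_prime hp).1 h1 with h2 | h2
    · exact absurd (Function.minimalPeriod_eq_one_iff_isFixedPt.1 h2) h0
    · exact h2
  have hinj := Function.iterate_injOn_Iio_minimalPeriod (f := (σ : ι → ι)) (x := i₀)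
  rw [hmp] at hinj
  let R : Finset ι := ((Finset.range p).erase 1).image (fun k => (σ : ι → ι)^[k] i₀)
  have hR : R.card = p - 1 := by
    rw [Finset.card_image_of_injOn, Finset.card_erase_of_mem (Finset.mem_range.2 hp.one_lt), Finset.card_range]
    intro a ha b hb hab
    exact hinj (Finset.mem_range.1 (Finset.mem_of_mem_erase ha)) (Finset.mem_range.1 (Finset.mem_of_mem_erase hb)) hab
  refine ⟨Rᶜ, ?_, ?_, ?_⟩
  · rw [Finset.mem_compl, Finset.mem_image]
    rintro ⟨k, hk, hk'⟩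
    rw [Finset.mem_erase] at hk
    exact hk.1 (hinj (Finset.mem_range.1 hk.2) (show 1 < p from hp.one_lt) (by simpa using hk'))
  · intro A h1 h2 h3 i
    by_cases hi : i ∈ R
    · obtain ⟨k, -, rfl⟩ := Finset.mem_image.1 hi
      have h4 : ∀ k : ℕ, (σ : ι → ι)^[k] i₀ ∈ A := by
        intro k
        induction k with
        | zero => exact h2
        | succ k ih => rw [Function.iterate_succ_apply']; exact h1 _ ih
      exact h4 k
    · exact h3 i (Finset.mem_compl.2 hi)
  · rw [Finset.card_compl, hR]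
    have : R.card ≤ Fintype.card ι := Finset.card_le_univ _
    omega

/-- the permutation lemma for involutions -/
theorem comb_two {ι : Type w} [Fintype ι] [DecidableEq ι] {σ : Equiv.Perm ι} (hσ : σ ^ 2 = 1) (h1 : σ ≠ 1)
    (hl : 3 ≤ Fintype.card ι) : ∃ (i₀ : ι) (S : Finset ι), (σ i₀ = i₀ ∨ σ i₀ ∈ S) ∧
      (∀ A : Set ι, (∀ i ∈ A, σ i ∈ A) → i₀ ∈ A → (∀ s ∈ S, s ∈ A) → ∀ i, i ∈ A) ∧
      S.card + 2 = Fintype.card ι := by
  have hs : ∀ i, σ (σ i) = i := by
    intro i
    have := congrArg (fun τ : Equiv.Perm ι => τ i) hσ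
    simpa [pow_two] using this
  have key : ∀ (i₀ a : ι), i₀ ≠ σ a → a ≠ i₀ → σ a ≠ a → (σ i₀ = i₀ ∨ σ i₀ ≠ σ a ∧ σ i₀ ≠ i₀) →
      ∃ (i₀ : ι) (S : Finset ι), (σ i₀ = i₀ ∨ σ i₀ ∈ S) ∧
      (∀ A : Set ι, (∀ i ∈ A, σ i ∈ A) → i₀ ∈ A → (∀ s ∈ S, s ∈ A) → ∀ i, i ∈ A) ∧
      S.card + 2 = Fintype.card ι := by
    intro i₀ a h2 h3 h4 h5
    refine ⟨i₀, ({i₀, σ a} : Finset ι)ᶜ, ?_, ?_, ?_⟩
    · rcases h5 with h5 | h5
      · exact Or.inl h5
      · right
        simp only [Finset.mem_compl, Finset.mem_insert, Finset.mem_singleton, not_or]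
        exact ⟨h5.2, h5.1⟩
    · intro A g1 g2 g3 i
      have ha : a ∈ A := g3 a (by
        simp only [Finset.mem_compl, Finset.mem_insert, Finset.mem_singleton, not_or]
        exact ⟨h3, fun e => h4 e.symm⟩)
      by_cases hi : i ∈ ({i₀, σ a} : Finset ι)
      · rw [Finset.mem_insert, Finset.mem_singleton] at hi
        rcases hi with rfl | rfl
        · exact g2
        · exact g1 a ha
      · exact g3 i (Finset.mem_compl.2 hi)
    · rw [Finset.card_compl, Finset.card_pair h2]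
      omega
  by_cases hfix : ∃ j, σ j = j
  · obtain ⟨j, hj⟩ := hfix
    obtain ⟨a, ha⟩ : ∃ a, σ a ≠ a := by
      by_contra hno
      push Not at hno
      exact h1 (Equiv.ext hno)
    refine key j a ?_ ?_ ha (Or.inl hj)
    · intro e
      apply ha
      have h2 : σ j = a := by rw [e, hs]
      rw [← h2, hj, hj]
    · rintro rfl
      exact ha hj
  · push Not at hfix
    obtain ⟨i₀⟩ : Nonempty ι := Fintype.card_pos_iff.1 (by omega)
    obtain ⟨a, ha⟩ : ∃ a, a ∉ ({i₀, σ i₀} : Finset ι) := by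
      by_contra hno
      push Not at hno
      have h2 : Fintype.card ι ≤ ({i₀, σ i₀} : Finset ι).card := by
        rw [← Finset.card_univ]
        exact Finset.card_le_card fun i _ => hno i
      have h3 := Finset.card_le_two (a := i₀) (b := σ i₀)
      omega
    rw [Finset.mem_insert, Finset.mem_singleton, not_or] at ha
    refine key i₀ a ?_ ha.1 (hfix a) (Or.inr ⟨?_, hfix i₀⟩)
    · intro e
      apply ha.2
      rw [e, hs]
    · intro e
      exact ha.1 (σ.injective e).symm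

end abs

variable {L : Type u} {Δ : Type v} {ι : Type w} [Group L] [MulAction L Δ] [Fintype ι] [DecidableEq ι]
variable {T : ι → Subgroup L}

/-- the fixed points -/
def Fx (Δ : Type v) [MulAction L Δ] (x : L) : Set Δ := {δ | x • δ = δ}

/-- the centralizer of `x` in `T j` -/
def Cx (T : ι → Subgroup L) (x : L) (j : ι) : Subgroup (T j) := (centralizer ({x} : Set L)).subgroupOf (T j)

theorem mem_Cx {x : L} {j : ι} {a : T j} : a ∈ Cx T x j ↔ (a : L) * x = x * a := by
  unfold Cx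
  rw [mem_subgroupOf, mem_centralizer_singleton_iff]

namespace DB

variable (h : DB Δ T) [Finite L] [Finite Δ] [Nonempty Δ]
include h

/-- **fixed points, general** -/
theorem card_fix_le {x : L} {ω : Δ} (hω : x • ω = ω) (i₀ : ι) (S : Finset ι)
    (hS : h.σ x i₀ = i₀ ∨ h.σ x i₀ ∈ S)
    (hcl : ∀ A : Set ι, (∀ i ∈ A, h.σ x i ∈ A) → i₀ ∈ A → (∀ s ∈ S, s ∈ A) → ∀ i, i ∈ A) :
    Nat.card (Fx Δ x) ≤ Nat.card (T i₀) ^ S.card := by
  classical
  have hex : ∀ δ : Fx Δ x, ∃ m : ∀ i, T i, m i₀ = 1 ∧ h.φ m • ω = δ := fun δ => h.exists_coord i₀ ω δ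
  choose c hc1 hc2 using hex
  have hfix : ∀ δ : Fx Δ x, x • h.φ (c δ) • ω = h.φ (c δ) • ω := fun δ => by rw [hc2]; exact δ.2
  let f : Fx Δ x → (∀ s : S, T s) := fun δ s => c δ s
  have hf : Function.Injective f := by
    intro δ ε hδε
    have hd1 := h.defect hω (hfix δ)
    have hd2 := h.defect hω (hfix ε)
    have h1 : c δ (h.σ x i₀) = c ε (h.σ x i₀) := by
      rcases hS with hS | hS
      · rw [hS, hc1, hc1]
      · exact congrFun hδε ⟨_, hS⟩
    have h2 : (c δ)⁻¹ * h.ψ x (c δ) = (c ε)⁻¹ * h.ψ x (c ε) := by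
      refine h.eq_of_fix (i := h.σ x i₀) ?_ hd1 hd2
      rw [Pi.mul_apply, Pi.mul_apply, Pi.inv_apply, Pi.inv_apply, h1]
      congr 1
      apply Subtype.ext
      rw [h.ψ_σ, h.ψ_σ, hc1, hc1]
    have h3 : ∀ i, i ∈ {i | c δ i = c ε i} := by
      refine hcl _ ?_ ?_ ?_
      · intro i hi
        have hi : c δ i = c ε i := hi
        have h4 : h.ψ x (c δ) (h.σ x i) = h.ψ x (c ε) (h.σ x i) := by
          apply Subtype.ext
          rw [h.ψ_σ, h.ψ_σ, hi]
        have h5 := congrFun h2 (h.σ x i)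
        rw [Pi.mul_apply, Pi.mul_apply, Pi.inv_apply, Pi.inv_apply, h4] at h5
        exact inv_injective (mul_right_cancel h5)
      · show c δ i₀ = c ε i₀
        rw [hc1, hc1]
      · intro s hs
        exact congrFun hδε ⟨s, hs⟩
    apply Subtype.ext
    rw [← hc2 δ, ← hc2 ε]
    congr 2
    funext i
    exact h3 i
  have h4 := Nat.card_le_card_of_injective f hf
  rw [Nat.card_pi, Finset.prod_congr rfl fun (s : S) _ => h.card_eq (s : ι) i₀, Finset.prod_const, Finset.card_univ,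
    Fintype.card_coe] at h4
  exact h4

theorem card_T_pos (i : ι) : 0 < Nat.card (T i) := Nat.card_pos

/-- an element of prime order moving a factor -/
theorem card_fix_moved {x : L} {ω : Δ} (hω : x • ω = ω) {p : ℕ} (hp : p.Prime) (hx : x ^ p = 1) {i : ι}
    (hi : h.σ x i ≠ i) : Nat.card (Fx Δ x) * Nat.card (T i) ^ (p - 1) ≤ Nat.card (T i) * Nat.card Δ ∧
      p ≤ Fintype.card ι := by
  have h1 : h.σ x ^ p = 1 := by rw [← h.σ_pow, hx, h.σ_one]
  obtain ⟨S, h2, h3, h4⟩ := comb_p hp h1 hi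
  have h5 := h.card_fix_le hω i S (Or.inr h2) h3
  have hS : 0 < S.card := Finset.card_pos.2 ⟨_, h2⟩
  refine ⟨?_, by have := hp.two_le; omega⟩
  rw [h.card_pow i, ← h4, pow_add]
  exact Nat.mul_le_mul_right _ h5

/-- an involution moving a factor -/
theorem card_fix_two {x : L} {ω : Δ} (hω : x • ω = ω) (hx : x ^ 2 = 1) (hi : h.σ x ≠ 1) (hl : 3 ≤ Fintype.card ι)
    (i : ι) : Nat.card (Fx Δ x) * Nat.card (T i) ≤ Nat.card Δ := by
  have h1 : h.σ x ^ 2 = 1 := by rw [← h.σ_pow, hx, h.σ_one]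
  obtain ⟨j, S, h2, h3, h4⟩ := comb_two h1 hi hl
  have h5 := h.card_fix_le hω j S h2 h3
  rw [h.card_eq j i] at h5
  have h6 := h.card_pow i
  rw [← h4, pow_add, pow_two] at h6
  have h7 : Nat.card (T i) * (Nat.card (Fx Δ x) * Nat.card (T i)) ≤ Nat.card (T i) * Nat.card Δ := by
    rw [h6]
    calc Nat.card (T i) * (Nat.card (Fx Δ x) * Nat.card (T i)) =
        Nat.card (Fx Δ x) * (Nat.card (T i) * Nat.card (T i)) := by ring
      _ ≤ _ := Nat.mul_le_mul_right _ h5
  exact Nat.le_of_mul_le_mul_left h7 Nat.card_pos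

/-- **fixed points, no factor moved** -/
theorem card_fix_id {x : L} {ω : Δ} (hω : x • ω = ω) (hσ : h.σ x = 1) (i₀ : ι) :
    Nat.card (Fx Δ x) * ∏ j ∈ Finset.univ.erase i₀, (Cx T x j).index ≤ Nat.card Δ := by
  classical
  have hex : ∀ δ : Fx Δ x, ∃ m : ∀ i, T i, m i₀ = 1 ∧ h.φ m • ω = δ := fun δ => h.exists_coord i₀ ω δ
  choose c hc1 hc2 using hex
  have hfix : ∀ δ : Fx Δ x, x • h.φ (c δ) • ω = h.φ (c δ) • ω := fun δ => by rw [hc2]; exact δ.2
  have hσi : ∀ i, h.σ x i = i := fun i => by rw [hσ]; rfl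
  have hψ : ∀ (m : ∀ i, T i) (i : ι), ((h.ψ x m i : T i) : L) = x * m i * x⁻¹ := by
    intro m i
    rw [h.ψ_apply, hσ]; rfl
  have hcc : ∀ (δ : Fx Δ x) (i : ι), c δ i ∈ Cx T x i := by
    intro δ i
    have hd := h.defect hω (hfix δ)
    have h1 := h.eq_one_of_fix (i := i₀) (by
      rw [Pi.mul_apply, Pi.inv_apply, hc1, inv_one, one_mul]
      apply Subtype.ext
      rw [hψ, hc1, coe_one, mul_one, mul_inv_cancel]) hd
    have h2 : h.ψ x (c δ) = c δ := (inv_mul_eq_one.1 h1).symm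
    have h3 : x * c δ i * x⁻¹ = c δ i := by rw [← hψ, h2]
    rw [mem_Cx]
    exact (mul_inv_eq_iff_eq_mul.1 h3).symm
  let f : Fx Δ x → (∀ s : (Finset.univ.erase i₀ : Finset ι), Cx T x s) := fun δ s => ⟨c δ s, hcc δ s⟩
  have hf : Function.Injective f := by
    intro δ ε hδε
    apply Subtype.ext
    rw [← hc2 δ, ← hc2 ε]
    congr 2
    funext i
    by_cases hi : i = i₀
    · subst hi
      rw [hc1, hc1]
    · exact congrArg Subtype.val (congrFun hδε ⟨i, Finset.mem_erase.2 ⟨hi, Finset.mem_univ i⟩⟩)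
  have h4 := Nat.card_le_card_of_injective f hf
  rw [Nat.card_pi, Finset.prod_coe_sort (Finset.univ.erase i₀) (fun s => Nat.card (Cx T x s))] at h4
  have h5 : Nat.card Δ = ∏ j ∈ Finset.univ.erase i₀, Nat.card (T j) := by
    have h6 := h.card_mul i₀
    rw [← Finset.mul_prod_erase Finset.univ (fun j => Nat.card (T j)) (Finset.mem_univ i₀)] at h6
    exact Nat.eq_of_mul_eq_mul_left Nat.card_pos h6
  rw [h5, Finset.prod_congr rfl fun j _ => ((Cx T x j).card_mul_index).symm, Finset.prod_mul_distrib]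
  exact Nat.mul_le_mul_right _ h4

/-- an element with a fixed point centralises no factor -/
theorem not_cent [FaithfulSMul L Δ] {x : L} {ω : Δ} (hω : x • ω = ω) (hx : x ≠ 1) (hσ : h.σ x = 1) (j : ι) :
    ¬ ∀ s ∈ T j, x * s = s * x := by
  intro hj
  have hψ : ∀ (m : ∀ i, T i) (i : ι), ((h.ψ x m i : T i) : L) = x * m i * x⁻¹ := by
    intro m i
    rw [h.ψ_apply, hσ]; rfl
  -- `x` centralises the stabiliser
  have hK : ∀ k : ∀ i, T i, h.φ k • ω = ω → h.ψ x k = k := by
    intro k hk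
    refine h.eq_of_fix (i := j) ?_ (h.ψ_fix hω hk) hk
    apply Subtype.ext
    rw [hψ, hj _ (k j).2]; group
  apply hx
  apply FaithfulSMul.eq_of_smul_eq_smul (α := Δ)
  intro δ
  obtain ⟨m, -, rfl⟩ := h.exists_coord j ω δ
  rw [one_smul, h.smul_φ hω]
  congr 2
  -- all elements of the factors commute with `x`
  funext i
  apply Subtype.ext
  rw [hψ]
  obtain ⟨m', hm1, hm2⟩ := h.exists_coord i ω (h.φ (Pi.mulSingle i (m i)) • ω)
  have h1 : h.φ (m'⁻¹ * Pi.mulSingle i (m i)) • ω = ω := by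
    rw [map_mul, map_inv, mul_smul, ← hm2, inv_smul_smul]
  have h2 := congrArg (fun k : ∀ i, T i => (k i : L)) (hK _ h1)
  simp only [hψ] at h2
  rw [Pi.mul_apply, Pi.inv_apply, hm1, Pi.mulSingle_eq_same, inv_one, one_mul] at h2
  exact h2

theorem not_comm (j : ι) : ¬ IsMulCommutative (T j) := by
  intro hc
  obtain ⟨a, b, hab⟩ := h.hna j
  exact hab (hc.is_comm.comm a b)

/-- the index of the centralizer -/
theorem five_le [FaithfulSMul L Δ] {x : L} {ω : Δ} (hω : x • ω = ω) (hx : x ≠ 1) (hσ : h.σ x = 1) (j : ι) :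
    5 ≤ (Cx T x j).index := by
  haveI := h.hs j
  refine Cfsg.Agent.SmallSimple.Embed.five_le_index (h.not_comm j) _ fun hT => h.not_cent hω hx hσ j fun s hs => ?_
  have : (⟨s, hs⟩ : T j) ∈ Cx T x j := by rw [hT]; exact mem_top _
  exact (mem_Cx.1 this).symm

/-- the class lemma in the block -/
theorem succ_le [FaithfulSMul L Δ] {x a : L} {ω ω' : Δ} (hω : x • ω = ω) (hx : x ≠ 1) (hσ : h.σ x = 1)
    (hω' : a • ω' = ω') (ha : a ≠ 1) (hσ' : h.σ a = 1) (hax : a * x = x * a) {p : ℕ} (hp : p.Prime) (hxp : x ^ p = 1)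
    (j : ι) : p + 1 ≤ (Cx T a j).index := by
  haveI := h.hs j
  refine class_lemma hp hxp ?_ hax (h.not_cent hω hx hσ j) (h.not_cent hω' ha hσ' j)
  intro s hs
  have h1 := h.conj_mem x hs
  rwa [hσ] at h1

/-- the swap of two factors -/
theorem card_fix_swap {x : L} {ω : Δ} (hω : x • ω = ω) {i₀ : ι} (h0 : h.σ x i₀ ≠ i₀) (h2 : Fintype.card ι = 2) :
    5 * Nat.card (Fx Δ x) ≤ 3 * Nat.card Δ := by
  classical
  set i₁ := h.σ x i₀ with hi₁
  have hcov : ∀ i, i = i₀ ∨ i = i₁ := by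
    intro i
    by_contra hno
    push Not at hno
    have h3 : ({i, i₀, i₁} : Finset ι).card = 3 := by
      rw [Finset.card_eq_three]
      exact ⟨i, i₀, i₁, hno.1, hno.2, Ne.symm h0, rfl⟩
    have h4 := Finset.card_le_univ ({i, i₀, i₁} : Finset ι)
    omega
  have h10 : h.σ x i₁ = i₀ := by
    rcases hcov (h.σ x i₁) with h3 | h3
    · exact h3
    · exact absurd ((h.σ x).injective (h3.trans hi₁)) h0
  let A : Set (T i₁) := {u | ∃ k : ∀ i, T i, h.φ k • ω = ω ∧ (k i₁ : L) = (u : L)⁻¹ ∧ (k i₀ : L) = x * u * x⁻¹}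
  have hA : ∀ s ∈ A, ∀ t ∈ A, s * t ∈ A → s * t = t * s := by
    rintro s ⟨k, hk, hk1, hk0⟩ t ⟨l, hl, hl1, hl0⟩ ⟨n, hn, hn1, hn0⟩
    have h3 : k * l = n := by
      refine h.eq_of_fix (i := i₀) ?_ (by rw [map_mul, mul_smul, hl, hk]) hn
      apply Subtype.ext
      rw [Pi.mul_apply, coe_mul, hk0, hl0, hn0, coe_mul]
      group
    have h4 : ((k * l) i₁ : L) = (n i₁ : L) := by rw [h3]
    rw [Pi.mul_apply, coe_mul, hk1, hl1, hn1, coe_mul, mul_inv_rev] at h4
    apply Subtype.ext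
    rw [coe_mul, coe_mul]
    have h5 := congrArg (fun z : L => z⁻¹) h4
    simp only [mul_inv_rev, inv_inv] at h5
    exact h5.symm
  haveI := h.hs i₁
  have hT := h.card_mul i₀
  have h3 : Nat.card Δ = Nat.card (T i₁) := by
    have h4 := h.card_pow i₀
    rw [h2, pow_two] at h4
    rw [Nat.eq_of_mul_eq_mul_left Nat.card_pos h4, h.card_eq i₀ i₁]
  have h5 : 5 * Nat.card A ≤ 3 * Nat.card (T i₁) := by
    refine three_fifths A hA ?_ ?_
    · haveI : Nontrivial (T i₁) := IsSimpleGroup.toNontrivial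
      exact Finite.one_lt_card
    · intro s hs
      rw [← (centralizer ({s} : Set (T i₁))).card_mul_index, mul_comm]
      refine Nat.mul_le_mul_left _ ?_
      refine Cfsg.Agent.SmallSimple.Embed.five_le_index (h.not_comm i₁) _ fun hT => hs ?_
      apply Subtype.ext
      refine h.center_T s.2 fun b hb => ?_
      have h6 : (⟨b, hb⟩ : T i₁) ∈ centralizer ({s} : Set (T i₁)) := by rw [hT]; exact mem_top _
      rw [mem_centralizer_singleton_iff] at h6
      exact (congrArg Subtype.val h6).symm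
  rw [h3]
  refine le_trans (Nat.mul_le_mul_left 5 ?_) h5
  have hex : ∀ δ : Fx Δ x, ∃ m : ∀ i, T i, m i₀ = 1 ∧ h.φ m • ω = δ := fun δ => h.exists_coord i₀ ω δ
  choose c hc1 hc2 using hex
  have hfix : ∀ δ : Fx Δ x, x • h.φ (c δ) • ω = h.φ (c δ) • ω := fun δ => by rw [hc2]; exact δ.2
  let f : Fx Δ x → A := fun δ => ⟨c δ i₁, (c δ)⁻¹ * h.ψ x (c δ), h.defect hω (hfix δ), by
    rw [Pi.mul_apply, coe_mul, Pi.inv_apply, coe_inv, h.ψ_σ, hc1, coe_one, mul_one, mul_inv_cancel, mul_one], by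
    have h6 : ((h.ψ x (c δ) i₀ : T i₀) : L) = x * c δ i₁ * x⁻¹ := by
      have h7 := h.ψ_σ x (c δ) i₁
      have h8 : ((h.ψ x (c δ) (h.σ x i₁) : T (h.σ x i₁)) : L) = ((h.ψ x (c δ) i₀ : T i₀) : L) := by rw [h10]
      rw [← h8, h7]
    rw [Pi.mul_apply, coe_mul, Pi.inv_apply, coe_inv, hc1, h6, coe_one, inv_one, one_mul]⟩
  refine Nat.card_le_card_of_injective f ?_
  intro δ ε hδε
  apply Subtype.ext
  rw [← hc2 δ, ← hc2 ε]
  congr 2
  funext i
  rcases hcov i with rfl | rfl
  · rw [hc1, hc1]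
  · exact congrArg Subtype.val hδε

end DB

end Cfsg.Agent.H344.RR
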