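import Cfsg.Agent.H867.RC.Spor

/-!
# Regular cycles (S3509): counting fixed points on an orbit without structure (helper344)

`Fo N ω x` : the number of fixed points of `x` in the orbit `N ω` (`N` normal).

* `fo_frob` : `x y x⁻¹ = y ^ m`, `y ^ r = 1`, `r` prime, `r` does not divide `m - 1`: `r F(x) ≤ n + (r - 1) F(y)`;
* `fo_pair` : `2 F(x) ≤ n + F(w)` if `w` fixes all common fixed points of `x` and `c x c⁻¹`, `c ∈ N`;
* `fo_le_cent` : `F(x) ≤ |C_N(x)|`;
* `cov_le` : a cover: `n ≤ ∑ F(x i)`.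
-/

set_option autoImplicit false
set_option linter.unusedSectionVars false
set_option linter.unusedVariables false
open Cfsg

namespace Cfsg.Agent.H344.RR

open MulAction Subgroup Cfsg.Agent.H106.RC

variable {G Ω : Type*} [Group G] [MulAction G Ω] [Finite Ω] (N : Subgroup G)

/-- the fixed points of `x` in the orbit `N ω` -/
def Fs (ω : Ω) (x : G) : Set Ω := {w | w ∈ orbit N ω ∧ x • w = w}

/-- their number -/
noncomputable def Fo (ω : Ω) (x : G) : ℕ := (Fs N ω x).ncard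

/-- the length of the orbit -/
noncomputable def No (ω : Ω) : ℕ := (orbit N ω).ncard

theorem fo_le (ω : Ω) (x : G) : Fo N ω x ≤ No N ω := Set.ncard_le_ncard (fun _ h => h.1) (Set.toFinite _)

/-- an element fixing a point of the orbit stabilises the orbit -/
theorem stab_orbit [hN : N.Normal] {ω w : Ω} {x : G} (hw : w ∈ orbit N ω) (hx : x • w ∈ orbit N ω) :
    ∀ u ∈ orbit N ω, x • u ∈ orbit N ω := by
  intro u hu
  rw [← orbit_eq_iff] at hw hx
  rw [← hw] at hu
  obtain ⟨n, rfl⟩ := hu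
  rw [← hx]
  refine ⟨⟨x * n * x⁻¹, hN.conj_mem n n.2 x⟩, ?_⟩
  change (x * n * x⁻¹) • x • w = x • (n : G) • w
  rw [smul_smul, smul_smul]
  congr 1
  group

theorem zpow_mem_orbit {ω w : Ω} {y : G} (hy : y ∈ N) (hw : w ∈ orbit N ω) : y • w ∈ orbit N ω := by
  obtain ⟨n, rfl⟩ := hw
  exact ⟨⟨y, hy⟩ * n, mul_smul (⟨y, hy⟩ : N) n ω⟩

/-- **Frobenius** -/
theorem fo_frob (ω : Ω) {x y : G} (hy : y ∈ N) {r m : ℕ} (hr : r.Prime) (hyr : y ^ r = 1) (hxy : x * y * x⁻¹ = y ^ m)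
    (hm : (m : ZMod r) ≠ 1) : r * Fo N ω x ≤ No N ω + (r - 1) * Fo N ω y := by
  classical
  have : Fact r.Prime := ⟨hr⟩
  set A : Set Ω := Fs N ω x \ Fs N ω y with hA
  have hpow : ∀ (k : ℕ) (w : Ω), x • w = w → x • (y ^ k • w) = y ^ (m * k) • w := by
    intro k w hw
    have h1 : x * y ^ k = y ^ (m * k) * x := by
      have h2 : x * y ^ k * x⁻¹ = y ^ (m * k) := by rw [← conj_pow, hxy, pow_mul]
      rw [← h2]; group
    rw [smul_smul, h1, mul_smul, hw]
  -- if `x` fixes `w` and `y ^ k w` then `y` fixes `w`, or `r` divides `k`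
  have key : ∀ (k : ℕ) (w : Ω), x • w = w → x • (y ^ k • w) = y ^ k • w → ¬ r ∣ k → y • w = w := by
    intro k w hw hk hrk
    rw [hpow k w hw] at hk
    -- the stabiliser of `w` in `⟨y⟩`
    have h1 : y ^ ((m * k : ℤ) - k) • w = w := by
      rw [sub_eq_neg_add, zpow_add, zpow_neg, mul_smul]
      have e1 : y ^ ((m : ℤ) * k) • w = y ^ (k : ℤ) • w := by
        have := hk
        rw [← zpow_natCast, ← zpow_natCast] at this
        push_cast at this
        exact this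
      rw [e1, inv_smul_smul]
    have h2 : IsCoprime ((m * k : ℤ) - k) (r : ℤ) := by
      rw [isCoprime_comm, Prime.coprime_iff_not_dvd (Nat.prime_iff_prime_int.1 hr)]
      intro h3
      have h4 : ((m : ℤ) - 1) * k = (m * k : ℤ) - k := by ring
      rw [← h4] at h3
      rcases (Nat.prime_iff_prime_int.1 hr).dvd_or_dvd h3 with h5 | h5
      · apply hm
        have h6 := (ZMod.intCast_zmod_eq_zero_iff_dvd ((m : ℤ) - 1) r).2 h5
        push_cast at h6
        exact sub_eq_zero.1 h6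
      · exact hrk (by exact_mod_cast h5)
    obtain ⟨a, b, hab⟩ := h2
    have h3 : y ∈ stabilizer G w := by
      have h4 : y ^ (a * ((m * k : ℤ) - k) + b * r) ∈ stabilizer G w := by
        rw [zpow_add, mul_comm a, zpow_mul, mul_comm b, zpow_mul, zpow_natCast, hyr, one_zpow, mul_one]
        exact zpow_mem (show y ^ ((m * k : ℤ) - k) ∈ stabilizer G w from h1) a
      rwa [hab, zpow_one] at h4
    exact h3
  -- the map `(k, w) ↦ y ^ k w`
  let f : Fin r × A → Ω := fun q => y ^ (q.1 : ℕ) • (q.2 : Ω)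
  have hymem : ∀ (k : ℕ) {w : Ω}, w ∈ orbit N ω → y ^ k • w ∈ orbit N ω := fun k w hw =>
    zpow_mem_orbit N (pow_mem hy k) hw
  have hkey : ∀ (a b : ℕ) (u v : Ω), u ∈ A → v ∈ A → b ≤ a → a < r → y ^ a • u = y ^ b • v → a = b ∧ u = v := by
    intro a b u v hu hv hba har h
    have h1 : v = y ^ (a - b) • u := by
      have h2 : y ^ b • (y ^ (a - b) • u) = y ^ b • v := by
        rw [smul_smul, ← pow_add, Nat.add_sub_cancel' hba, h]
      exact (smul_left_cancel _ h2).symm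
    have h3 : r ∣ a - b := by
      by_contra hno
      have h4 : x • (y ^ (a - b) • u) = y ^ (a - b) • u := by rw [← h1]; exact hv.1.2
      exact hu.2 ⟨hu.1.1, key _ u hu.1.2 h4 hno⟩
    have h5 : a - b = 0 := Nat.eq_zero_of_dvd_of_lt h3 (by omega)
    refine ⟨by omega, ?_⟩
    rw [h1, h5, pow_zero, one_smul]
  have hf : Function.Injective f := by
    rintro ⟨a, u⟩ ⟨b, v⟩ h
    rcases le_total (b : ℕ) a with hab | hab
    · obtain ⟨h1, h2⟩ := hkey a b u v u.2 v.2 hab a.2 h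
      exact Prod.ext (Fin.ext h1) (Subtype.ext h2)
    · obtain ⟨h1, h2⟩ := hkey b a v u v.2 u.2 hab b.2 h.symm
      exact Prod.ext (Fin.ext h1.symm) (Subtype.ext h2.symm)
  have hyinv : ∀ (k : ℕ) (w : Ω), y • (y ^ k • w) = y ^ k • w → y • w = w := by
    intro k w h
    rw [smul_smul, ← pow_succ', pow_succ, mul_smul] at h
    exact smul_left_cancel _ h
  have hsub : Set.range f ⊆ orbit N ω \ Fs N ω y := by
    rintro _ ⟨⟨k, w⟩, rfl⟩
    exact ⟨hymem k w.2.1.1, fun h => w.2.2 ⟨w.2.1.1, hyinv k w h.2⟩⟩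
  have h1 : r * A.ncard ≤ (orbit N ω \ Fs N ω y).ncard := by
    have h2 : (Set.range f).ncard = r * A.ncard := by
      rw [← Set.image_univ, Set.ncard_image_of_injective _ hf, Set.ncard_univ, Nat.card_prod, Nat.card_eq_fintype_card,
        Fintype.card_fin, Nat.card_coe_set_eq]
    rw [← h2]
    exact Set.ncard_le_ncard hsub (Set.toFinite _)
  have h2 : (orbit N ω \ Fs N ω y).ncard + Fo N ω y = No N ω :=
    Set.ncard_sdiff_add_ncard_of_subset (fun _ h => h.1) (Set.toFinite _)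
  have h3 : Fo N ω x ≤ A.ncard + Fo N ω y := by
    have h4 : Fs N ω x ⊆ A ∪ Fs N ω y := by
      intro w hw
      by_cases h : w ∈ Fs N ω y
      · exact Or.inr h
      · exact Or.inl ⟨hw, h⟩
    exact (Set.ncard_le_ncard h4 (Set.toFinite _)).trans (Set.ncard_union_le _ _)
  obtain ⟨s, hs⟩ : ∃ s, r = s + 1 := ⟨r - 1, by have := hr.pos; omega⟩
  rw [hs] at h1 ⊢
  simp only [Nat.add_sub_cancel]
  nlinarith

/-- **two conjugates** -/
theorem fo_pair [hN : N.Normal] (ω : Ω) {x c w : G} (hc : c ∈ N) (hw : ∀ u : Ω, x • u = u → (c * x * c⁻¹) • u = u → w • u = u) :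
    2 * Fo N ω x ≤ No N ω + Fo N ω w := by
  classical
  have h1 : (Fs N ω x ∪ Fs N ω (c * x * c⁻¹)).ncard + (Fs N ω x ∩ Fs N ω (c * x * c⁻¹)).ncard =
      (Fs N ω x).ncard + (Fs N ω (c * x * c⁻¹)).ncard :=
    Set.ncard_union_add_ncard_inter _ _ (Set.toFinite _) (Set.toFinite _)
  have h2 : (Fs N ω (c * x * c⁻¹)).ncard = (Fs N ω x).ncard := by
    have h3 : Fs N ω (c * x * c⁻¹) = (fun u => c • u) '' Fs N ω x := by
      ext u
      constructor
      · rintro ⟨h4, h5⟩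
        refine ⟨c⁻¹ • u, ⟨zpow_mem_orbit N (inv_mem hc) h4, ?_⟩, smul_inv_smul c u⟩
        rw [mul_smul, mul_smul] at h5
        exact (eq_inv_smul_iff.2 h5)
      · rintro ⟨v, ⟨h4, h5⟩, rfl⟩
        refine ⟨zpow_mem_orbit N hc h4, ?_⟩
        change (c * x * c⁻¹) • c • v = c • v
        rw [mul_smul, inv_smul_smul, mul_smul, h5]
    rw [h3, Set.ncard_image_of_injective _ (MulAction.injective c)]
  have h3 : (Fs N ω x ∪ Fs N ω (c * x * c⁻¹)).ncard ≤ No N ω :=
    Set.ncard_le_ncard (by rintro u (h | h) <;> exact h.1) (Set.toFinite _)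
  have h4 : (Fs N ω x ∩ Fs N ω (c * x * c⁻¹)).ncard ≤ Fo N ω w :=
    Set.ncard_le_ncard (fun u h => ⟨h.1.1, hw u h.1.2 h.2.2⟩) (Set.toFinite _)
  unfold Fo at *
  omega

/-- the same with the product `x c x c⁻¹` -/
theorem fo_mul [hN : N.Normal] (ω : Ω) {x c : G} (hc : c ∈ N) :
    2 * Fo N ω x ≤ No N ω + Fo N ω (x * (c * x * c⁻¹)) :=
  fo_pair N ω hc fun u h1 h2 => by rw [mul_smul, h2, h1]

/-- a power has more fixed points -/
theorem fo_mono (ω : Ω) {x y : G} (h : ∀ u : Ω, x • u = u → y • u = u) : Fo N ω x ≤ Fo N ω y :=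
  Set.ncard_le_ncard (fun _ hu => ⟨hu.1, h _ hu.2⟩) (Set.toFinite _)

theorem fo_le_cent [Finite G] [hN : N.Normal] (ω : Ω) (x : G) :
    Fo N ω x ≤ Nat.card ↥(N ⊓ centralizer ({x} : Set G)) :=
  Cfsg.Agent.H867.RC.card_fix_le x ω (by rw [normalizer_eq_top_iff.2 hN]; trivial)

/-- **covers** -/
theorem cov_le {ι : Type*} [Fintype ι] {x : ι → G} (hc : Cov Ω x) (ω : Ω) : No N ω ≤ ∑ i, Fo N ω (x i) := by
  classical
  have h1 : orbit N ω ⊆ ⋃ i ∈ (Finset.univ : Finset ι), Fs N ω (x i) := by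
    intro u hu
    obtain ⟨i, hi⟩ := hc u
    simp only [Finset.mem_univ, Set.iUnion_true, Set.mem_iUnion]
    exact ⟨i, hu, hi⟩
  refine (Set.ncard_le_ncard h1 (Set.toFinite _)).trans ?_
  exact Finset.set_ncard_biUnion_le _ _

end Cfsg.Agent.H344.RR
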