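import Cfsg.Agent.H344.RR.FixT
import Cfsg.Agent.H715.Fpr.Row3

/-!
# Regular cycles (S3509): fixed points modulo primes (helper344)

* `fo_mod` : `x y = y x`, `x ∈ N`, `x ^ p = 1`: the number of common fixed points is `F(y) mod p`;
* `fo_sylow` : `x ∈ N` generates a Sylow `p`-subgroup of order `p`: `F(x) = 0` or `p F(x) ∣ |N_N(⟨x⟩)|`;
* `cov_union` : a cover by three elements with overlap.
-/

set_option autoImplicit false
set_option linter.unusedSectionVars false
set_option linter.unusedVariables false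
open Cfsg

namespace Cfsg.Agent.H344.RR

open MulAction Subgroup Cfsg.Agent.H106.RC

variable {G Ω : Type*} [Group G] [MulAction G Ω] [Finite Ω] (N : Subgroup G)

theorem ncard_fix_mod {p : ℕ} (hp : p.Prime) {x : G} (hx : x ^ p = 1) (A : Set Ω) (hA : ∀ u ∈ A, x • u ∈ A) :
    {u | u ∈ A ∧ x • u = u}.ncard ≡ A.ncard [MOD p] := by
  classical
  have : Fact p.Prime := ⟨hp⟩
  have := Fintype.ofFinite A
  let f : Function.End A := fun u => ⟨x • (u : Ω), hA u u.2⟩
  have hpow : ∀ (k : ℕ) (u : A), ((f ^ k) u : Ω) = x ^ k • (u : Ω) := by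
    intro k
    induction k with
    | zero => intro u; rw [pow_zero, pow_zero, one_smul]; rfl
    | succ k ih =>
      intro u
      rw [pow_succ, pow_succ, mul_smul]
      exact ih (f u)
  have hf : f ^ p ^ 1 = 1 := by
    funext u
    apply Subtype.ext
    rw [hpow, pow_one, hx, one_smul]
    rfl
  have h1 := Equiv.Perm.card_fixedPoints_modEq hf
  have h2 : {u | u ∈ A ∧ x • u = u}.ncard = Fintype.card (Function.fixedPoints f) := by
    rw [← Nat.card_coe_set_eq, ← Nat.card_eq_fintype_card]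
    refine Nat.card_congr ⟨fun u => ⟨⟨u.1, u.2.1⟩, Subtype.ext u.2.2⟩, fun u => ⟨u.1.1, u.1.2, congrArg Subtype.val u.2⟩,
      fun u => rfl, fun u => rfl⟩
  have h3 : A.ncard = Fintype.card A := by rw [← Nat.card_coe_set_eq, Nat.card_eq_fintype_card]
  rw [h2, h3]
  exact h1.symm

/-- the number of common fixed points modulo `p` -/
theorem fo_mod (ω : Ω) {p : ℕ} (hp : p.Prime) {x y : G} (hxN : x ∈ N) (hx : x ^ p = 1) (hxy : x * y = y * x) :
    (Fs N ω y ∩ Fs N ω x).ncard ≡ Fo N ω y [MOD p] := by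
  have h1 := ncard_fix_mod hp hx (Fs N ω y) fun u hu => ⟨zpow_mem_orbit N hxN hu.1, by
    rw [← mul_smul, ← hxy, mul_smul, hu.2]⟩
  have h2 : {u | u ∈ Fs N ω y ∧ x • u = u} = Fs N ω y ∩ Fs N ω x := by
    ext u
    exact ⟨fun h => ⟨h.1, h.1.1, h.2⟩, fun h => ⟨h.1, h.2.2⟩⟩
  rwa [h2] at h1

theorem fo_modEq (ω : Ω) {p : ℕ} (hp : p.Prime) {x : G} (hxN : x ∈ N) (hx : x ^ p = 1) :
    Fo N ω x ≡ No N ω [MOD p] :=
  ncard_fix_mod hp hx (orbit N ω) fun u hu => zpow_mem_orbit N hxN hu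

/-- **Sylow subgroups of prime order** -/
theorem fo_sylow [Finite G] (ω : Ω) {p : ℕ} (hp : p.Prime) {x : G} (hxN : x ∈ N) (hxo : orderOf x = p)
    (h2 : ¬ p ^ 2 ∣ Nat.card N) : Fo N ω x = 0 ∨
      p * Fo N ω x ∣ Nat.card (normalizer ((zpowers (⟨x, hxN⟩ : N) : Subgroup N) : Set N)) := by
  by_cases hne : ∃ w₀ ∈ orbit N ω, x • w₀ = w₀
  swap
  · left
    unfold Fo
    rw [Set.ncard_eq_zero (Set.toFinite _)]
    exact Set.eq_empty_of_forall_notMem fun w hw => hne ⟨w, hw.1, hw.2⟩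
  obtain ⟨w₀, hw₀, hx₀⟩ := hne
  right
  have horb : orbit N w₀ = orbit N ω := orbit_eq_iff.2 hw₀
  have hxH : (⟨x, hxN⟩ : N) ∈ stabilizer N w₀ := hx₀
  have h1 := Cfsg.Agent.H715.Fpr.fix_prime_mem_dvd hp h2 hxH (by rw [← hxo]; exact Subgroup.orderOf_mk x hxN)
  have h3 : Fo N ω x = Nat.card (fixedBy (N ⧸ stabilizer N w₀) (⟨x, hxN⟩ : N)) := by
    unfold Fo
    rw [← Nat.card_coe_set_eq]
    let e := orbitEquivQuotientStabilizer N w₀
    have hq : ∀ (y : N) (q : N ⧸ stabilizer N w₀), ((e.symm (y • q) : orbit N w₀) : Ω) = y • ((e.symm q : orbit N w₀) : Ω) := by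
      intro y q
      obtain ⟨g, rfl⟩ := QuotientGroup.mk_surjective q
      rw [show y • (g : N ⧸ stabilizer N w₀) = ((y * g : N) : N ⧸ stabilizer N w₀) from rfl]
      rw [orbitEquivQuotientStabilizer_symm_apply, orbitEquivQuotientStabilizer_symm_apply, mul_smul]
    symm
    refine Nat.card_congr (Equiv.ofBijective (fun q : fixedBy (N ⧸ stabilizer N w₀) (⟨x, hxN⟩ : N) =>
      (⟨((e.symm q.1 : orbit N w₀) : Ω), by rw [← horb]; exact (e.symm q.1).2, ?_⟩ : Fs N ω x)) ⟨?_, ?_⟩)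
    · have h4 := hq ⟨x, hxN⟩ q.1
      rw [show (⟨x, hxN⟩ : N) • q.1 = q.1 from q.2] at h4
      exact h4.symm
    · intro a b hab
      have h5 : ((e.symm a.1 : orbit N w₀) : Ω) = ((e.symm b.1 : orbit N w₀) : Ω) :=
        congrArg (fun w : Fs N ω x => (w : Ω)) hab
      exact Subtype.ext (e.symm.injective (Subtype.ext h5))
    · rintro ⟨w, hw, hxw⟩
      rw [← horb] at hw
      refine ⟨⟨e ⟨w, hw⟩, ?_⟩, ?_⟩
      · change (⟨x, hxN⟩ : N) • e ⟨w, hw⟩ = e ⟨w, hw⟩
        apply e.symm.injective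
        apply Subtype.ext
        rw [hq, e.symm_apply_apply]
        exact hxw
      · apply Subtype.ext
        change ((e.symm (e ⟨w, hw⟩) : orbit N w₀) : Ω) = w
        rw [e.symm_apply_apply]
  rw [h3]
  exact h1

/-- a cover by three elements -/
theorem cov_union (ω : Ω) {A B C : Set Ω} (h : orbit N ω ⊆ A ∪ (B ∪ C)) :
    No N ω + (B ∩ C).ncard ≤ A.ncard + B.ncard + C.ncard := by
  have h1 := Set.ncard_le_ncard h (Set.toFinite _)
  have h2 := Set.ncard_union_le A (B ∪ C)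
  have h3 := Set.ncard_union_add_ncard_inter B C (Set.toFinite _) (Set.toFinite _)
  unfold No
  omega

end Cfsg.Agent.H344.RR
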