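import Cfsg.Agent.H344.RR.HSData
import Cfsg.Agent.HN.AutHS
import Cfsg.Agent.HN.IotaCent

/-!
# Higman-Sims: the elements of prime order in the permutation group on 100 points (helper344)

* `five_spec` : `x ∈ Q` of order 5: some `x (c x c⁻¹)`, `c ∈ Q`, has order 7 or 11;
* `three_spec` : `x ∈ Q` of order 3 normalises a subgroup of order 7 and does not centralise it;
* `inv_spec` : the involutions.
-/

set_option autoImplicit false
set_option maxRecDepth 100000

namespace Cfsg.Agent.H344.RR.HSF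

open Cfsg.Agent.HN.Pres Cfsg.Agent.HN.HS100 Cfsg.Agent.HN.P1408 Cfsg.Agent.HN.H0Basic Cfsg.Agent.HN.AutBound
open Cfsg.Agent.SporadicA.PermTab Cfsg.Agent.HN.Classes Cfsg.Agent.H344.RR.HSD
open Equiv Subgroup

/-! ### groups with a normal form -/

section gen

variable {G : Type*} [Group G] [Finite G]

theorem heis {a b c : G} (ca : c * a = a * c) (cb : c * b = b * c) (hba : b * a = a * b * c) :
    ∃ S : Subgroup G, ∀ g, g ∈ S ↔ ∃ i j k : ℕ, g = a ^ i * b ^ j * c ^ k := by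
  have hca : ∀ i : ℕ, c * a ^ i = a ^ i * c := fun i => ((show Commute c a from ca).pow_right i).eq
  have hcb : ∀ i : ℕ, c * b ^ i = b ^ i * c := fun i => ((show Commute c b from cb).pow_right i).eq
  have hbi : ∀ i : ℕ, b * a ^ i = a ^ i * b * c ^ i := by
    intro i
    induction i with
    | zero => simp
    | succ i ih =>
      have h1 : c ^ i * a = a * c ^ i := ((show Commute c a from ca).pow_left i).eq
      calc b * a ^ (i + 1) = (b * a ^ i) * a := by rw [pow_succ, mul_assoc]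
        _ = a ^ i * b * (c ^ i * a) := by rw [ih]; simp only [mul_assoc]
        _ = a ^ i * (b * a) * c ^ i := by rw [h1]; simp only [mul_assoc]
        _ = a ^ (i + 1) * b * c ^ (i + 1) := by rw [hba, pow_succ, pow_succ']; simp only [mul_assoc]
  let T : Set G := {g | ∃ i j k : ℕ, g = a ^ i * b ^ j * c ^ k}
  have hA : ∀ h ∈ T, a * h ∈ T := by
    rintro _ ⟨i, j, k, rfl⟩
    exact ⟨i + 1, j, k, by rw [pow_succ']; simp only [mul_assoc]⟩
  have hB : ∀ h ∈ T, b * h ∈ T := by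
    rintro _ ⟨i, j, k, rfl⟩
    refine ⟨i, j + 1, i + k, ?_⟩
    have h2 : c ^ i * b ^ j = b ^ j * c ^ i := ((show Commute c b from cb).pow_pow i j).eq
    calc b * (a ^ i * b ^ j * c ^ k) = (b * a ^ i) * b ^ j * c ^ k := by simp only [mul_assoc]
      _ = a ^ i * b * (c ^ i * b ^ j) * c ^ k := by rw [hbi]; simp only [mul_assoc]
      _ = a ^ i * b ^ (j + 1) * c ^ (i + k) := by rw [h2, pow_succ', pow_add]; simp only [mul_assoc]
  have hC : ∀ h ∈ T, c * h ∈ T := by
    rintro _ ⟨i, j, k, rfl⟩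
    refine ⟨i, j, k + 1, ?_⟩
    calc c * (a ^ i * b ^ j * c ^ k) = (c * a ^ i) * b ^ j * c ^ k := by simp only [mul_assoc]
      _ = a ^ i * (c * b ^ j) * c ^ k := by rw [hca]; simp only [mul_assoc]
      _ = a ^ i * b ^ j * c ^ (k + 1) := by rw [hcb, pow_succ']; simp only [mul_assoc]
  have hit : ∀ (s : G), (∀ h ∈ T, s * h ∈ T) → ∀ (n : ℕ), ∀ h ∈ T, s ^ n * h ∈ T := by
    intro s hs n
    induction n with
    | zero => intro h hh; simpa using hh
    | succ n ih => intro h hh; rw [pow_succ', mul_assoc]; exact hs _ (ih h hh)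
  have hmul : ∀ g ∈ T, ∀ h ∈ T, g * h ∈ T := by
    rintro _ ⟨i, j, k, rfl⟩ h hh
    have := hit a hA i _ (hit b hB j _ (hit c hC k h hh))
    simpa only [mul_assoc] using this
  have hone : (1 : G) ∈ T := ⟨0, 0, 0, by simp⟩
  have hpow : ∀ g ∈ T, ∀ n : ℕ, g ^ n ∈ T := by
    intro g hg n
    induction n with
    | zero => simpa using hone
    | succ n ih => rw [pow_succ]; exact hmul _ ih _ hg
  refine ⟨⟨⟨⟨T, fun {x y} hx hy => hmul x hx y hy⟩, hone⟩, fun {x} hx => ?_⟩, fun g => Iff.rfl⟩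
  have h1 : x⁻¹ = x ^ (orderOf x - 1) := by
    rw [inv_eq_iff_mul_eq_one, ← pow_succ', Nat.sub_add_cancel (orderOf_pos x), pow_orderOf_eq_one]
  change x⁻¹ ∈ T
  rw [h1]
  exact hpow x hx _

/-- Sylow -/
theorem exists_conj_mem {Q S : Subgroup G} (hSQ : S ≤ Q) {p n : ℕ} (hp : p.Prime) (hS : Nat.card S = p ^ n)
    (hQ : ¬ p ^ (n + 1) ∣ Nat.card Q) {x : G} (hxQ : x ∈ Q) (hx : x ^ p = 1) : ∃ c ∈ Q, c⁻¹ * x * c ∈ S := by
  have : Fact p.Prime := ⟨hp⟩
  have hc0 : Nat.card Q ≠ 0 := Nat.card_pos.ne'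
  have hf : (Nat.card Q).factorization p = n := by
    apply le_antisymm
    · by_contra hno
      exact hQ ((Nat.pow_dvd_pow p (by omega)).trans (Nat.ordProj_dvd _ p))
    · rw [← hp.pow_dvd_iff_le_factorization hc0, ← hS]
      exact Subgroup.card_dvd_of_le hSQ
  have hS' : Nat.card (S.subgroupOf Q) = p ^ n := by
    rw [Nat.card_congr (Subgroup.subgroupOfEquivOfLe hSQ).toEquiv, hS]
  let P : Sylow p Q := Sylow.ofCard (S.subgroupOf Q) (by rw [hS', hf])
  let x' : Q := ⟨x, hxQ⟩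
  have hx' : x' ^ p = 1 := Subtype.ext hx
  have h1 : IsPGroup p (Subgroup.zpowers x') := by
    rintro ⟨y, hy⟩
    obtain ⟨k, rfl⟩ := Subgroup.mem_zpowers_iff.1 hy
    refine ⟨1, Subtype.ext ?_⟩
    change (x' ^ k) ^ p ^ 1 = 1
    rw [pow_one, ← zpow_natCast, ← zpow_mul, mul_comm, zpow_mul, zpow_natCast, hx', one_zpow]
  obtain ⟨R, hR⟩ := h1.exists_le_sylow
  obtain ⟨c, hc⟩ := MulAction.exists_smul_eq Q P R
  refine ⟨c, c.2, ?_⟩
  have h2 : x' ∈ ((c • P : Sylow p Q) : Subgroup Q) := by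
    rw [hc]
    exact hR (Subgroup.mem_zpowers x')
  rw [Sylow.smul_def, Sylow.pointwise_smul_def, Subgroup.mem_pointwise_smul_iff_inv_smul_mem] at h2
  have h3 : (c⁻¹ * x' * c : Q) ∈ S.subgroupOf Q := by
    have h4 : (MulAut.conj c)⁻¹ • x' = c⁻¹ * x' * c := by
      rw [← map_inv, MulAut.smul_def, MulAut.conj_apply, inv_inv]
    rw [← h4]
    exact h2
  exact h3

end gen

/-! ### tables -/

/-- iteration of a table -/
def it (T m p : ℕ) : ℕ := Nat.rec p (fun _ ih => lk T ih) m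

theorem it_spec {g : Perm (Fin 100)} {T : ℕ} (h : ∀ i : Fin 100, ((g i : Fin 100) : ℕ) = lk T i) (m : ℕ) (i : Fin 100) :
    (((g ^ m) i : Fin 100) : ℕ) = it T m i := by
  induction m with
  | zero => rfl
  | succ m ih =>
    rw [pow_succ', Perm.mul_apply, h, ih]
    rfl

theorem ext_nat {g h : Perm (Fin 100)} (H : ∀ i : Fin 100, ((g i : Fin 100) : ℕ) = ((h i : Fin 100) : ℕ)) : g = h :=
  Equiv.ext fun i => Fin.ext (H i)

theorem of_allB {f : ℕ → Bool} (h : allB f 100 = true) (i : Fin 100) : f i = true := (allB_iff _ _).1 h i i.2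

theorem tab_of {w : List ℕ} {T : ℕ} (h : allB (fun i => Nat.beq (t1 w i) (lk T i)) 100 = true) (i : Fin 100) :
    ((φ (hw w) i : Fin 100) : ℕ) = lk T i := by
  rw [φ_hw_apply]
  exact Nat.eq_of_beq_eq_true (of_allB h i)

theorem pow_one_of {g : Perm (Fin 100)} {T m : ℕ} (hg : ∀ i : Fin 100, ((g i : Fin 100) : ℕ) = lk T i)
    (h : allB (fun i => Nat.beq (it T m i) i) 100 = true) : g ^ m = 1 :=
  ext_nat fun i => by rw [it_spec hg]; exact Nat.eq_of_beq_eq_true (of_allB h i)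

theorem ne_one_of {g : Perm (Fin 100)} {T : ℕ} (hg : ∀ i : Fin 100, ((g i : Fin 100) : ℕ) = lk T i)
    (h : allB (fun i => Nat.beq (lk T i) i) 100 = false) : g ≠ 1 := by
  rintro rfl
  have : allB (fun i => Nat.beq (lk T i) i) 100 = true := by
    rw [allB_iff]
    intro i hi
    have := hg ⟨i, hi⟩
    change i = lk T i at this
    rw [← this]
    exact Nat.beq_refl i
  rw [this] at h
  exact Bool.noConfusion h

theorem mem_Q_of {w : List ℕ} (h : band (okw w) (not (par w)) = true) : φ (hw w) ∈ Q := by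
  rw [band_eq_true] at h
  refine ⟨hw w, mem_K_of_par h.1 ?_, rfl⟩
  have := h.2
  revert this
  cases par w <;> simp

/-! ### the Sylow 5-subgroup -/

/-- `a` -/
noncomputable def A : Perm (Fin 100) := φ (hw wa)
/-- `b` -/
noncomputable def B : Perm (Fin 100) := φ (hw wb)
/-- `c` -/
noncomputable def C : Perm (Fin 100) := φ (hw wc)

theorem hA : ∀ i : Fin 100, ((A i : Fin 100) : ℕ) = lk ta i := tab_of (by decide +kernel)
theorem hB : ∀ i : Fin 100, ((B i : Fin 100) : ℕ) = lk tb i := tab_of (by decide +kernel)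
theorem hC : ∀ i : Fin 100, ((C i : Fin 100) : ℕ) = lk tc i := tab_of (by decide +kernel)
theorem A_mem : A ∈ Q := mem_Q_of (by decide +kernel)
theorem B_mem : B ∈ Q := mem_Q_of (by decide +kernel)
theorem C_mem : C ∈ Q := mem_Q_of (by decide +kernel)
theorem A5 : A ^ 5 = 1 := pow_one_of hA (by decide +kernel)
theorem B5 : B ^ 5 = 1 := pow_one_of hB (by decide +kernel)
theorem C5 : C ^ 5 = 1 := pow_one_of hC (by decide +kernel)

theorem mul_eq {g h g' h' : Perm (Fin 100)} {s t s' t' : ℕ} (hg : ∀ i : Fin 100, ((g i : Fin 100) : ℕ) = lk s i)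
    (hh : ∀ i : Fin 100, ((h i : Fin 100) : ℕ) = lk t i) (hg' : ∀ i : Fin 100, ((g' i : Fin 100) : ℕ) = lk s' i)
    (hh' : ∀ i : Fin 100, ((h' i : Fin 100) : ℕ) = lk t' i)
    (H : allB (fun i => Nat.beq (lk s (lk t i)) (lk s' (lk t' i))) 100 = true) : g * h = g' * h' :=
  ext_nat fun i => by
    rw [Perm.mul_apply, Perm.mul_apply, hg, hh, hg', hh']
    exact Nat.eq_of_beq_eq_true (of_allB H i)

theorem CA : C * A = A * C := mul_eq hC hA hA hC (by decide +kernel)
theorem CB : C * B = B * C := mul_eq hC hB hB hC (by decide +kernel)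
theorem BA : B * A = A * B * C := ext_nat fun i => by
  have h : allB (fun i => Nat.beq (lk tb (lk ta i)) (lk ta (lk tb (lk tc i)))) 100 = true := by decide +kernel
  rw [Perm.mul_apply, Perm.mul_apply, Perm.mul_apply, hA, hB, hB, hC, hA]
  exact Nat.eq_of_beq_eq_true (of_allB h i)

/-- the `n`-th element -/
noncomputable def el (n : ℕ) : Perm (Fin 100) := A ^ (n / 25) * B ^ (n / 5 % 5) * C ^ (n % 5)

/-- its table -/
def ge (n p : ℕ) : ℕ := it ta (n / 25) (it tb (n / 5 % 5) (it tc (n % 5) p))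

theorem el_apply (n : ℕ) (i : Fin 100) : ((el n i : Fin 100) : ℕ) = ge n i := by
  unfold el ge
  rw [Perm.mul_apply, Perm.mul_apply, it_spec hA, it_spec hB, it_spec hC]

theorem el_mem (n : ℕ) : el n ∈ Q := mul_mem (mul_mem (pow_mem A_mem _) (pow_mem B_mem _)) (pow_mem C_mem _)

/-- the code of the `n`-th element -/
def cd (T n : ℕ) : ℕ := Nat.land (Nat.shiftRight T (Nat.mul 14 n)) 16383

theorem cod_ok : ∀ n < 125, cd cod n = ge n bp * 128 + ge n bq := by decide +kernel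
theorem cod_inj : ∀ n < 125, ∀ m < n, cd cod n ≠ cd cod m := by decide +kernel

theorem el_inj {n m : ℕ} (hn : n < 125) (hm : m < 125) (h : el n = el m) : n = m := by
  have h1 : ge n bp = ge m bp := by
    have h2 := el_apply n ⟨bp, by decide⟩
    rw [h, el_apply] at h2
    exact h2.symm
  have h1' : ge n bq = ge m bq := by
    have h2 := el_apply n ⟨bq, by decide⟩
    rw [h, el_apply] at h2
    exact h2.symm
  have h3 : cd cod n = cd cod m := by rw [cod_ok n hn, cod_ok m hm, h1, h1']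
  rcases lt_trichotomy n m with h4 | h4 | h4
  · exact absurd h3.symm (cod_inj m hm n h4)
  · exact h4
  · exact absurd h3 (cod_inj n hn m h4)

theorem exists_S5 : ∃ S : Subgroup (Perm (Fin 100)), S ≤ Q ∧ Nat.card S = 5 ^ 3 ∧ ∀ g ∈ S, ∃ n < 125, g = el n := by
  obtain ⟨S, hS⟩ := heis CA CB BA
  have h1 : ∀ g ∈ S, ∃ n < 125, g = el n := by
    intro g hg
    obtain ⟨i, j, k, rfl⟩ := (hS g).1 hg
    refine ⟨25 * (i % 5) + 5 * (j % 5) + k % 5, by omega, ?_⟩
    unfold el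
    have e1 : (25 * (i % 5) + 5 * (j % 5) + k % 5) / 25 = i % 5 := by omega
    have e2 : (25 * (i % 5) + 5 * (j % 5) + k % 5) / 5 % 5 = j % 5 := by omega
    have e3 : (25 * (i % 5) + 5 * (j % 5) + k % 5) % 5 = k % 5 := by omega
    rw [e1, e2, e3, ← pow_mod_orderOf A i, ← pow_mod_orderOf B j, ← pow_mod_orderOf C k]
    have key : ∀ (D : Perm (Fin 100)), D ^ 5 = 1 → ∀ m : ℕ, D ^ (m % orderOf D) = D ^ (m % 5) := by
      intro D hD m
      rw [pow_mod_orderOf]
      conv_lhs => rw [← Nat.div_add_mod m 5, pow_add, pow_mul, hD, one_pow, one_mul]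
    rw [key A A5, key B B5, key C C5]
  have h2 : ∀ n, el n ∈ S := fun n => (hS _).2 ⟨_, _, _, rfl⟩
  refine ⟨S, fun g hg => ?_, ?_, h1⟩
  · obtain ⟨n, -, rfl⟩ := h1 g hg
    exact el_mem n
  · have h3 : Function.Bijective (fun n : Fin 125 => (⟨el n, h2 n⟩ : S)) := by
      refine ⟨fun n m h => Fin.ext (el_inj n.2 m.2 (congrArg Subtype.val h)), fun g => ?_⟩
      obtain ⟨n, hn, h⟩ := h1 g g.2
      exact ⟨⟨n, hn⟩, Subtype.ext h.symm⟩
    rw [← Nat.card_congr (Equiv.ofBijective _ h3), Nat.card_eq_fintype_card, Fintype.card_fin]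
    norm_num

/-- the check of the certificate -/
def chk5 (n : ℕ) : Bool :=
  band (band (okw (cws.getD n [])) (not (par (cws.getD n []))))
    (band (allB (fun p => Nat.beq (lk (tws.getD n 0) p)
      (ge n (t1 (cws.getD n []) (ge n (t1 (iw (cws.getD n [])) p))))) 100)
    (band (not (allB (fun p => Nat.beq (lk (tws.getD n 0) p) p) 100))
      (or (allB (fun p => Nat.beq (it (tws.getD n 0) 7 p) p) 100)
        (allB (fun p => Nat.beq (it (tws.getD n 0) 11 p) p) 100))))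

theorem chk5_all : allB (fun n => chk5 (n + 1)) 124 = true := by decide +kernel

theorem cert5 {n : ℕ} (hn : n < 125) (h0 : n ≠ 0) : ∃ c ∈ Q, el n * (c * el n * c⁻¹) ≠ 1 ∧
    ((el n * (c * el n * c⁻¹)) ^ 7 = 1 ∨ (el n * (c * el n * c⁻¹)) ^ 11 = 1) := by
  obtain ⟨m, rfl⟩ : ∃ m, n = m + 1 := ⟨n - 1, by omega⟩
  have h := (allB_iff _ _).1 chk5_all m (by omega)
  simp only [chk5, band_eq_true] at h
  obtain ⟨h1, h2, h3, h4⟩ := h
  have ht : ∀ i : Fin 100, (((el (m + 1) * (φ (hw (cws.getD (m + 1) [])) * el (m + 1) *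
      (φ (hw (cws.getD (m + 1) [])))⁻¹)) i : Fin 100) : ℕ) = lk (tws.getD (m + 1) 0) i := by
    intro i
    rw [← map_inv, ← hw_iw, Perm.mul_apply, Perm.mul_apply, Perm.mul_apply, el_apply, φ_hw_apply, el_apply, φ_hw_apply]
    exact (Nat.eq_of_beq_eq_true (of_allB h2 i)).symm
  refine ⟨φ (hw (cws.getD (m + 1) [])), mem_Q_of (by rw [band_eq_true]; exact h1), ne_one_of ht ?_, ?_⟩
  · revert h3
    cases allB (fun p => Nat.beq (lk (tws.getD (m + 1) 0) p) p) 100 <;> simp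
  · rw [Bool.or_eq_true] at h4
    rcases h4 with h5 | h5
    · exact Or.inl (pow_one_of ht h5)
    · exact Or.inr (pow_one_of ht h5)

theorem not_dvd5 : ¬ 5 ^ (3 + 1) ∣ Nat.card Q := by
  rw [card_Q]
  norm_num

theorem not_dvd3 : ¬ 3 ^ (2 + 1) ∣ Nat.card Q := by
  rw [card_Q]
  norm_num

/-- **elements of order 5** -/
theorem five_spec {x : Perm (Fin 100)} (hx : x ∈ Q) (h5 : x ^ 5 = 1) (h1 : x ≠ 1) : ∃ c ∈ Q,
    x * (c * x * c⁻¹) ≠ 1 ∧ ((x * (c * x * c⁻¹)) ^ 7 = 1 ∨ (x * (c * x * c⁻¹)) ^ 11 = 1) := by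
  obtain ⟨S, hSQ, hS, hS'⟩ := exists_S5
  obtain ⟨d, hd, hdS⟩ := exists_conj_mem hSQ (by norm_num) hS not_dvd5 hx h5
  obtain ⟨n, hn, he⟩ := hS' _ hdS
  have hx' : x = d * el n * d⁻¹ := by rw [← he]; group
  have h0 : n ≠ 0 := by
    rintro rfl
    apply h1
    rw [hx']
    have : el 0 = 1 := by simp [el]
    rw [this]; group
  obtain ⟨c, hc, h2, h3⟩ := cert5 hn h0
  have key : x * (d * c * d⁻¹ * x * (d * c * d⁻¹)⁻¹) = d * (el n * (c * el n * c⁻¹)) * d⁻¹ := by
    rw [hx']; group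
  refine ⟨d * c * d⁻¹, mul_mem (mul_mem hd hc) (inv_mem hd), ?_, ?_⟩
  · rw [key]
    intro h
    exact h2 (conj_eq_one_iff.1 h)
  · rw [key, conj_pow, conj_pow, conj_eq_one_iff, conj_eq_one_iff]
    exact h3

/-! ### the Sylow 3-subgroup -/

/-- `u` -/
noncomputable def U : Perm (Fin 100) := φ (hw wu)
/-- `v` -/
noncomputable def V : Perm (Fin 100) := φ (hw wv)

theorem hU : ∀ i : Fin 100, ((U i : Fin 100) : ℕ) = lk tu i := tab_of (by decide +kernel)
theorem hV : ∀ i : Fin 100, ((V i : Fin 100) : ℕ) = lk tv i := tab_of (by decide +kernel)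
theorem U_mem : U ∈ Q := mem_Q_of (by decide +kernel)
theorem V_mem : V ∈ Q := mem_Q_of (by decide +kernel)
theorem U3 : U ^ 3 = 1 := pow_one_of hU (by decide +kernel)
theorem V3 : V ^ 3 = 1 := pow_one_of hV (by decide +kernel)
theorem VU : V * U = U * V * 1 := by rw [mul_one]; exact mul_eq hV hU hU hV (by decide +kernel)

/-- the `n`-th element -/
noncomputable def el3 (n : ℕ) : Perm (Fin 100) := U ^ (n / 3) * V ^ (n % 3)

/-- its table -/
def ge3 (n p : ℕ) : ℕ := it tu (n / 3) (it tv (n % 3) p)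

theorem el3_apply (n : ℕ) (i : Fin 100) : ((el3 n i : Fin 100) : ℕ) = ge3 n i := by
  unfold el3 ge3
  rw [Perm.mul_apply, it_spec hU, it_spec hV]

theorem el3_mem (n : ℕ) : el3 n ∈ Q := mul_mem (pow_mem U_mem _) (pow_mem V_mem _)

theorem cod3_ok : ∀ n < 9, cd cod3 n = ge3 n bp3 * 128 + ge3 n bq3 := by decide +kernel
theorem cod3_inj : ∀ n < 9, ∀ m < n, cd cod3 n ≠ cd cod3 m := by decide +kernel

theorem el3_inj {n m : ℕ} (hn : n < 9) (hm : m < 9) (h : el3 n = el3 m) : n = m := by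
  have h1 : ge3 n bp3 = ge3 m bp3 := by
    have h2 := el3_apply n ⟨bp3, by decide⟩
    rw [h, el3_apply] at h2
    exact h2.symm
  have h1' : ge3 n bq3 = ge3 m bq3 := by
    have h2 := el3_apply n ⟨bq3, by decide⟩
    rw [h, el3_apply] at h2
    exact h2.symm
  have h3 : cd cod3 n = cd cod3 m := by rw [cod3_ok n hn, cod3_ok m hm, h1, h1']
  rcases lt_trichotomy n m with h4 | h4 | h4
  · exact absurd h3.symm (cod3_inj m hm n h4)
  · exact h4
  · exact absurd h3 (cod3_inj n hn m h4)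

theorem exists_S3 : ∃ S : Subgroup (Perm (Fin 100)), S ≤ Q ∧ Nat.card S = 3 ^ 2 ∧ ∀ g ∈ S, ∃ n < 9, g = el3 n := by
  obtain ⟨S, hS⟩ := heis (a := U) (b := V) (c := 1) (by simp) (by simp) VU
  have h1 : ∀ g ∈ S, ∃ n < 9, g = el3 n := by
    intro g hg
    obtain ⟨i, j, k, rfl⟩ := (hS g).1 hg
    refine ⟨3 * (i % 3) + j % 3, by omega, ?_⟩
    unfold el3
    have e1 : (3 * (i % 3) + j % 3) / 3 = i % 3 := by omega
    have e2 : (3 * (i % 3) + j % 3) % 3 = j % 3 := by omega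
    rw [e1, e2, one_pow, mul_one]
    have key : ∀ (D : Perm (Fin 100)), D ^ 3 = 1 → ∀ m : ℕ, D ^ m = D ^ (m % 3) := by
      intro D hD m
      conv_lhs => rw [← Nat.div_add_mod m 3, pow_add, pow_mul, hD, one_pow, one_mul]
    rw [key U U3 i, key V V3 j]
  have h2 : ∀ n, el3 n ∈ S := fun n => (hS _).2 ⟨n / 3, n % 3, 0, by rw [pow_zero, mul_one]; rfl⟩
  refine ⟨S, fun g hg => ?_, ?_, h1⟩
  · obtain ⟨n, -, rfl⟩ := h1 g hg
    exact el3_mem n
  · have h3 : Function.Bijective (fun n : Fin 9 => (⟨el3 n, h2 n⟩ : S)) := by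
      refine ⟨fun n m h => Fin.ext (el3_inj n.2 m.2 (congrArg Subtype.val h)), fun g => ?_⟩
      obtain ⟨n, hn, h⟩ := h1 g g.2
      exact ⟨⟨n, hn⟩, Subtype.ext h.symm⟩
    rw [← Nat.card_congr (Equiv.ofBijective _ h3), Nat.card_eq_fintype_card, Fintype.card_fin]
    norm_num

/-- the check of the certificate -/
def chk3 (n : ℕ) : Bool :=
  band (band (okw (yws.getD n [])) (not (par (yws.getD n []))))
    (band (allB (fun p => Nat.beq (ge3 n (t1 (yws.getD n []) p))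
      (t1 (yws.getD n []) (t1 (yws.getD n []) (ge3 n p)))) 100)
    (band (not (allB (fun p => Nat.beq (t1 (yws.getD n []) p) p) 100))
      (allB (fun p => Nat.beq (t1 (yws.getD n []) (t1 (yws.getD n []) (t1 (yws.getD n []) (t1 (yws.getD n [])
        (t1 (yws.getD n []) (t1 (yws.getD n []) (t1 (yws.getD n []) p))))))) p) 100)))

theorem chk3_all : allB (fun n => chk3 (n + 1)) 8 = true := by decide +kernel

theorem cert3 {n : ℕ} (hn : n < 9) (h0 : n ≠ 0) : ∃ y ∈ Q, y ≠ 1 ∧ y ^ 7 = 1 ∧ el3 n * y * (el3 n)⁻¹ = y ^ 2 := by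
  obtain ⟨m, rfl⟩ : ∃ m, n = m + 1 := ⟨n - 1, by omega⟩
  have h := (allB_iff _ _).1 chk3_all m (by omega)
  simp only [chk3, band_eq_true] at h
  obtain ⟨h1, h2, h3, h4⟩ := h
  have hy : ∀ i : Fin 100, ((φ (hw (yws.getD (m + 1) [])) i : Fin 100) : ℕ) = t1 (yws.getD (m + 1) []) i := fun i =>
    φ_hw_apply _ i
  refine ⟨φ (hw (yws.getD (m + 1) [])), mem_Q_of (by rw [band_eq_true]; exact h1), ?_, ?_, ?_⟩
  · intro he
    have : allB (fun p => Nat.beq (t1 (yws.getD (m + 1) []) p) p) 100 = true := by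
      rw [allB_iff]
      intro i hi
      have h5 := hy ⟨i, hi⟩
      rw [he] at h5
      change i = _ at h5
      rw [← h5]
      exact Nat.beq_refl i
    rw [this] at h3
    exact Bool.noConfusion h3
  · refine ext_nat fun i => ?_
    simp only [pow_succ, pow_zero, one_mul, Perm.mul_apply, Perm.one_apply, hy]
    exact Nat.eq_of_beq_eq_true (of_allB h4 i)
  · rw [mul_inv_eq_iff_eq_mul]
    refine ext_nat fun i => ?_
    rw [pow_two, Perm.mul_apply, Perm.mul_apply, Perm.mul_apply, el3_apply, hy, hy, hy, el3_apply]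
    exact Nat.eq_of_beq_eq_true (of_allB h2 i)

/-- **elements of order 3** -/
theorem three_spec {x : Perm (Fin 100)} (hx : x ∈ Q) (h3 : x ^ 3 = 1) (h1 : x ≠ 1) :
    ∃ y ∈ Q, y ≠ 1 ∧ y ^ 7 = 1 ∧ x * y * x⁻¹ = y ^ 2 := by
  obtain ⟨S, hSQ, hS, hS'⟩ := exists_S3
  obtain ⟨d, hd, hdS⟩ := exists_conj_mem hSQ (by norm_num) hS not_dvd3 hx h3
  obtain ⟨n, hn, he⟩ := hS' _ hdS
  have hx' : x = d * el3 n * d⁻¹ := by rw [← he]; group
  have h0 : n ≠ 0 := by
    rintro rfl
    apply h1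
    rw [hx']
    have : el3 0 = 1 := by simp [el3]
    rw [this]; group
  obtain ⟨y, hy, h2, h4, h5⟩ := cert3 hn h0
  refine ⟨d * y * d⁻¹, mul_mem (mul_mem hd hy) (inv_mem hd), ?_, ?_, ?_⟩
  · intro h
    exact h2 (conj_eq_one_iff.1 h)
  · rw [conj_pow, h4]; group
  · rw [conj_pow, ← h5, hx']; group

end Cfsg.Agent.H344.RR.HSF
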