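import Cfsg.Agent.H344.RR.HSInv

/-!
# Higman-Sims: an element of order 5 commuting with an involution of type 2C (helper344)
-/

set_option autoImplicit false
set_option maxRecDepth 100000

namespace Cfsg.Agent.H344.RR.HSF

open Cfsg.Agent.HN.Pres Cfsg.Agent.HN.HS100 Cfsg.Agent.HN.P1408 Cfsg.Agent.HN.H0Basic Cfsg.Agent.HN.AutBound
open Cfsg.Agent.SporadicA.PermTab Cfsg.Agent.HN.Classes Cfsg.Agent.H344.RR.HSD Cfsg.Agent.HN.Local
open Equiv Subgroup

/-! ### the alternating group of degree 8 -/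

/-- the standard 5-cycle -/
def c0 : Perm (Fin 8) := swap 0 1 * swap 1 2 * swap 2 3 * swap 3 4
/-- the conjugating element -/
def k0 : Perm (Fin 8) := swap 0 1 * swap 1 3

theorem k0_even : Perm.sign k0 = 1 := by decide
theorem c0_pow : c0 ^ 5 = 1 := by decide +kernel
theorem c0_ne : c0 ≠ 1 := by decide +kernel
theorem c0_prod : (c0 * (k0 * c0 * k0⁻¹)) ^ 3 = 1 ∧ c0 * (k0 * c0 * k0⁻¹) ≠ 1 := by decide +kernel

theorem cyc_of_five {s : Perm (Fin 8)} (h5 : s ^ 5 = 1) (h1 : s ≠ 1) : s.cycleType = {5} := by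
  have : Fact (Nat.Prime 5) := ⟨by norm_num⟩
  have ho : orderOf s = 5 := orderOf_eq_prime h5 h1
  have h2 : s.IsCycle := Perm.isCycle_of_prime_order (by rw [ho]; norm_num) (by
    rw [ho]
    calc s.support.card ≤ Fintype.card (Fin 8) := Finset.card_le_univ _
      _ < 2 * 5 := by decide)
  rw [h2.cycleType, ← h2.orderOf, ho]

theorem a8_spec {x s : Perm (Fin 8)} (h5 : x ^ 5 = 1) (h1 : x ≠ 1) (h3 : s ^ 3 = 1) (hc : x * s = s * x) :
    ∃ c : Perm (Fin 8), Perm.sign c = 1 ∧ c * s = s * c ∧ (x * (c * x * c⁻¹)) ^ 3 = 1 ∧ x * (c * x * c⁻¹) ≠ 1 := by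
  have hcj : IsConj c0 x := by
    rw [Perm.isConj_iff_cycleType_eq, cyc_of_five c0_pow c0_ne, cyc_of_five h5 h1]
  obtain ⟨p, hp⟩ := isConj_iff.1 hcj
  set s' : Perm (Fin 8) := p⁻¹ * s * p with hs'
  have hs3 : s' ^ 3 = 1 := by
    have : s' ^ 3 = p⁻¹ * s ^ 3 * p := by rw [hs']; simp only [pow_succ, pow_zero, one_mul]; group
    rw [this, h3]; group
  have hsc : c0 * s' = s' * c0 := by
    have h2 : c0 = p⁻¹ * x * p := by rw [← hp]; group
    rw [h2, hs']
    calc p⁻¹ * x * p * (p⁻¹ * s * p) = p⁻¹ * (x * s) * p := by group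
      _ = p⁻¹ * s * p * (p⁻¹ * x * p) := by rw [hc]; group
  -- `s'` fixes the points `0, ..., 4`
  have happ : ∀ i, s' (c0 i) = c0 (s' i) := fun i => by
    have := congrArg (fun q : Perm (Fin 8) => q i) hsc
    exact this.symm
  have hfix : s' 0 = 0 := by
    have h0 : s' 1 = c0 (s' 0) := by rw [← happ]; congr 1
    have h2 : s' 2 = c0 (s' 1) := by rw [← happ]; congr 1
    have h4 : s' 3 = c0 (s' 2) := by rw [← happ]; congr 1
    have h6 : s' 4 = c0 (s' 3) := by rw [← happ]; congr 1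
    have hss : s' (s' (s' 0)) = 0 := by
      have := congrArg (fun q : Perm (Fin 8) => q 0) hs3
      simpa [pow_succ] using this
    have hne : s' 1 ≠ s' 0 := fun h => absurd (s'.injective h) (by decide)
    rw [h0] at hne h2
    rw [h2] at h4
    rw [h4] at h6
    generalize hj : s' 0 = j at *
    have key : ∀ j : Fin 8, c0 j ≠ j → j = 0 ∨ j = 1 ∨ j = 2 ∨ j = 3 ∨ j = 4 := by decide +kernel
    rcases key j hne with rfl | rfl | rfl | rfl | rfl
    · rfl
    · exfalso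
      rw [h0, show c0 1 = 2 by decide +kernel, h2] at hss
      revert hss; decide +kernel
    · exfalso
      rw [h2, show c0 (c0 2) = 4 by decide +kernel, h6] at hss
      revert hss; decide +kernel
    · exfalso
      rw [h4, show c0 (c0 (c0 3)) = 1 by decide +kernel, h0] at hss
      revert hss; decide +kernel
    · exfalso
      rw [h6, show c0 (c0 (c0 (c0 4))) = 3 by decide +kernel, h4] at hss
      revert hss; decide +kernel
  have hf1 : s' 1 = 1 := by
    have h0 : s' 1 = c0 (s' 0) := by rw [← happ]; congr 1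
    rw [h0, hfix]; decide +kernel
  have hf2 : s' 2 = 2 := by
    have h0 : s' 2 = c0 (s' 1) := by rw [← happ]; congr 1
    rw [h0, hf1]; decide +kernel
  have hf3 : s' 3 = 3 := by
    have h0 : s' 3 = c0 (s' 2) := by rw [← happ]; congr 1
    rw [h0, hf2]; decide +kernel
  have hk : k0 * s' = s' * k0 := by
    refine (Perm.Disjoint.commute fun i => ?_).eq
    have key : ∀ i : Fin 8, k0 i = i ∨ i = 0 ∨ i = 1 ∨ i = 3 := by decide +kernel
    rcases key i with h | rfl | rfl | rfl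
    · exact Or.inl h
    · exact Or.inr hfix
    · exact Or.inr hf1
    · exact Or.inr hf3
  have e : x * (p * k0 * p⁻¹ * x * (p * k0 * p⁻¹)⁻¹) = p * (c0 * (k0 * c0 * k0⁻¹)) * p⁻¹ := by
    rw [← hp]; group
  refine ⟨p * k0 * p⁻¹, ?_, ?_, ?_, ?_⟩
  · rw [map_mul, map_mul, k0_even, map_inv, mul_one, mul_inv_cancel]
  · have h2 : s = p * s' * p⁻¹ := by rw [hs']; group
    rw [h2]
    calc p * k0 * p⁻¹ * (p * s' * p⁻¹) = p * (k0 * s') * p⁻¹ := by group
      _ = p * s' * p⁻¹ * (p * k0 * p⁻¹) := by rw [hk]; group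
  · rw [e, conj_pow, c0_prod.1]; group
  · rw [e]
    intro h
    exact c0_prod.2 (conj_eq_one_iff.1 h)

/-! ### the centralizer of `Z` -/

theorem of_central {s : A8} (h : φ (Cfsg.Agent.HN.Iota.iota s) = 1) : s = 1 := by
  rcases φ_eq_one_iff.1 h with h1 | h1
  · exact Cfsg.Agent.HN.Iota.iota_inj (by rw [h1, map_one])
  · refine Cfsg.Agent.HN.Iota.eq_one_of_central fun g => ?_
    rw [h1]
    exact (τ_comm g).symm

theorem exists_iota_of {y : Perm (Fin 100)} (hy : y ∈ Q) {m : ℕ} (hm : Odd m) (hym : y ^ m = 1) (hyZ : y * Z = Z * y) :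
    ∃ s : A8, y = φ (Cfsg.Agent.HN.Iota.iota s) := by
  obtain ⟨h, hK, rfl⟩ := hy
  obtain ⟨k, rfl⟩ := hm
  have hz : h * gz * h⁻¹ = gz ∨ h * gz * h⁻¹ = gz * τ := by
    have h1 : φ (gz⁻¹ * (h * gz * h⁻¹)) = 1 := by
      rw [map_mul, map_mul, map_mul, map_inv, map_inv, φ_gz, hyZ]; group
    rcases φ_eq_one_iff.1 h1 with h2 | h2
    · left
      rw [inv_mul_eq_one] at h2
      exact h2.symm
    · right
      rw [← h2]; group
  have hz2 : h ^ 2 * gz = gz * h ^ 2 := by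
    have e1 : h ^ 2 * gz * (h ^ 2)⁻¹ = h * (h * gz * h⁻¹) * h⁻¹ := by rw [pow_two]; group
    have e2 : h ^ 2 * gz * (h ^ 2)⁻¹ = gz := by
      rw [e1]
      rcases hz with h2 | h2
      · rw [h2, h2]
      · rw [h2]
        calc h * (gz * τ) * h⁻¹ = h * gz * h⁻¹ * τ := by
              rw [← mul_assoc, mul_assoc (h * gz), ← τ_comm h⁻¹, ← mul_assoc]
          _ = gz := by rw [h2, mul_assoc, τ_mul_τ, mul_one]
    exact mul_inv_eq_iff_eq_mul.1 e2
  set h' : H0 := h ^ (2 * k + 1 + 1) with hh'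
  have hφ : φ h' = φ h := by rw [hh', pow_succ, map_mul, map_pow, hym, one_mul]
  have hc1 : Commute h' gz := by
    rw [hh', show 2 * k + 1 + 1 = 2 * (k + 1) by ring, pow_mul]
    exact (show Commute (h ^ 2) gz from hz2).pow_left _
  have hc2 : Commute h' τ := τ_comm h'
  obtain ⟨q, hq, s, hs⟩ := Cfsg.Agent.HN.IotaCent.cent.cent h' hc2 hc1
  refine ⟨s, ?_⟩
  rw [← hφ, hs, map_mul]
  have hqK : q ∈ K := by
    have h1 : q = h' * (Cfsg.Agent.HN.Iota.iota s)⁻¹ := by rw [hs]; group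
    rw [h1]
    exact K.mul_mem (K.pow_mem hK _) (K.inv_mem (Cfsg.Agent.HN.Iota.iota_mem_K s))
  have hq1 : φ q = 1 := by
    rw [φ_eq_one_iff]
    rcases hq with h1 | h1 | h1 | h1
    · exact Or.inl h1
    · exact Or.inr h1
    · rw [h1] at hqK
      exact absurd hqK gz_not_mem
    · rw [h1] at hqK
      have := (K.mul_mem_cancel_left τ_mem_K).1 hqK
      exact absurd this gz_not_mem
  rw [hq1, one_mul]

/-- **an element of order 5 commuting with `Z`** -/
theorem r5_Z {x s : Perm (Fin 100)} (hx : x ∈ Q) (hs : s ∈ Q) (h5 : x ^ 5 = 1) (h1 : x ≠ 1) (h3 : s ^ 3 = 1)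
    (hxs : x * s = s * x) (hxZ : x * Z = Z * x) (hsZ : s * Z = Z * s) :
    ∃ c ∈ Q, c * Z = Z * c ∧ c * s = s * c ∧ (x * (c * x * c⁻¹)) ^ 3 = 1 ∧ x * (c * x * c⁻¹) ≠ 1 := by
  obtain ⟨x', rfl⟩ := exists_iota_of hx (m := 5) (by decide) h5 hxZ
  obtain ⟨s', rfl⟩ := exists_iota_of hs (m := 3) (by decide) h3 hsZ
  have g5 : x' ^ 5 = 1 := of_central (by rw [map_pow, map_pow, h5])
  have g3 : s' ^ 3 = 1 := of_central (by rw [map_pow, map_pow, h3])
  have g1 : x' ≠ 1 := fun h => h1 (by rw [h, map_one, map_one])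
  have gc : x' * s' = s' * x' := by
    have h2 : x' * s' * (s' * x')⁻¹ = 1 := of_central (by
      rw [map_mul, map_mul, map_inv, map_inv, map_mul, map_mul, map_mul, map_mul, hxs]; group)
    exact mul_inv_eq_one.1 h2
  obtain ⟨c, hc0, hc1, hc2, hc3⟩ := a8_spec (x := (x' : Perm (Fin 8))) (s := (s' : Perm (Fin 8)))
    (by have := congrArg Subtype.val g5; exact this) (fun h => g1 (Subtype.ext h)) (by have := congrArg Subtype.val g3; exact this)
    (by have := congrArg Subtype.val gc; exact this)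
  let c' : A8 := ⟨c, Perm.mem_alternatingGroup.2 hc0⟩
  have k1 : c' * s' = s' * c' := Subtype.ext hc1
  have k2 : (x' * (c' * x' * c'⁻¹)) ^ 3 = 1 := Subtype.ext hc2
  refine ⟨φ (Cfsg.Agent.HN.Iota.iota c'), ⟨_, Cfsg.Agent.HN.Iota.iota_mem_K c', rfl⟩, ?_, ?_, ?_, ?_⟩
  · rw [← φ_gz, ← map_mul, ← map_mul, (Cfsg.Agent.HN.Iota.z_iota c').eq]
  · rw [← map_mul, ← map_mul, ← map_mul, ← map_mul, k1]
  · have h2 := congrArg (fun g => φ (Cfsg.Agent.HN.Iota.iota g)) k2
    simpa only [map_pow, map_mul, map_inv, map_one] using h2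
  · intro h
    apply hc3
    have h2 : x' * (c' * x' * c'⁻¹) = 1 := of_central (by simpa only [map_mul, map_inv] using h)
    exact congrArg Subtype.val h2

/-- **an element of order 5 commuting with an involution of type 2C** -/
theorem r5_spec {t g x s : Perm (Fin 100)} (hg : g ∈ autG 100 adjA) (ht : t = g * Z * g⁻¹) (hx : x ∈ Q) (hs : s ∈ Q)
    (h5 : x ^ 5 = 1) (h1 : x ≠ 1) (h3 : s ^ 3 = 1) (hxs : x * s = s * x) (hxt : x * t = t * x) (hst : s * t = t * s) :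
    ∃ c ∈ Q, c * t = t * c ∧ c * s = s * c ∧ (x * (c * x * c⁻¹)) ^ 3 = 1 ∧ x * (c * x * c⁻¹) ≠ 1 := by
  have hg' := inv_mem hg
  have Qn : ∀ q ∈ Q, g⁻¹ * q * g ∈ Q := fun q hq => by
    have := Q_normal hg' hq
    rwa [inv_inv] at this
  have hcm : ∀ a b : Perm (Fin 100), a * b = b * a → (g⁻¹ * a * g) * (g⁻¹ * b * g) = (g⁻¹ * b * g) * (g⁻¹ * a * g) := by
    intro a b hab
    calc (g⁻¹ * a * g) * (g⁻¹ * b * g) = g⁻¹ * (a * b) * g := by group
      _ = _ := by rw [hab]; group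
  have hZ : Z = g⁻¹ * t * g := by rw [ht]; group
  have hpw : ∀ (a : Perm (Fin 100)) (n : ℕ), (g⁻¹ * a * g) ^ n = g⁻¹ * a ^ n * g := by
    intro a n
    have := conj_pow (a := g⁻¹) (b := a) (i := n)
    rwa [inv_inv] at this
  obtain ⟨c, hc, c1, c2, c3, c4⟩ := r5_Z (x := g⁻¹ * x * g) (s := g⁻¹ * s * g) (Qn x hx) (Qn s hs)
    (by rw [hpw, h5]; group) (fun h => h1 (by
      have : x = g * (g⁻¹ * x * g) * g⁻¹ := by group
      rw [this, h]; group)) (by rw [hpw, h3]; group) (hcm _ _ hxs) (by rw [hZ]; exact hcm _ _ hxt)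
    (by rw [hZ]; exact hcm _ _ hst)
  have e : x * (g * c * g⁻¹ * x * (g * c * g⁻¹)⁻¹) = g * (g⁻¹ * x * g * (c * (g⁻¹ * x * g) * c⁻¹)) * g⁻¹ := by group
  refine ⟨g * c * g⁻¹, Q_normal hg hc, ?_, ?_, ?_, ?_⟩
  · rw [ht]
    calc g * c * g⁻¹ * (g * Z * g⁻¹) = g * (c * Z) * g⁻¹ := by group
      _ = _ := by rw [c1]; group
  · calc g * c * g⁻¹ * s = g * (c * (g⁻¹ * s * g)) * g⁻¹ := by group
      _ = _ := by rw [c2]; group
  · rw [e, conj_pow, c3]; group
  · rw [e]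
    exact fun h => c4 (conj_eq_one_iff.1 h)

end Cfsg.Agent.H344.RR.HSF
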