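import Cfsg.Agent.H344.RR.HSFacts

/-!
# Higman-Sims: the involutions of `Aut HS` and the elements of order 5 commuting with an outer involution (helper344)
-/

set_option autoImplicit false
set_option maxRecDepth 100000

namespace Cfsg.Agent.H344.RR.HSF

open Cfsg.Agent.HN.Pres Cfsg.Agent.HN.HS100 Cfsg.Agent.HN.P1408 Cfsg.Agent.HN.H0Basic Cfsg.Agent.HN.AutBound
open Cfsg.Agent.SporadicA.PermTab Cfsg.Agent.HN.Classes Cfsg.Agent.H344.RR.HSD
open Equiv Subgroup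

/-- iteration of a word -/
def itw (w : List ℕ) (m p : ℕ) : ℕ := Nat.rec p (fun _ ih => t1 w ih) m

theorem itw_spec (w : List ℕ) (m : ℕ) (i : Fin 100) : (((φ (hw w) ^ m) i : Fin 100) : ℕ) = itw w m i := by
  induction m with
  | zero => rfl
  | succ m ih =>
    rw [pow_succ', Perm.mul_apply, φ_hw_apply, ih]
    rfl

theorem wpow_one {w : List ℕ} {m : ℕ} (h : allB (fun i => Nat.beq (itw w m i) i) 100 = true) : φ (hw w) ^ m = 1 :=
  ext_nat fun i => by rw [itw_spec]; exact Nat.eq_of_beq_eq_true (of_allB h i)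

theorem w_ne_one {w : List ℕ} (h : allB (fun i => Nat.beq (t1 w i) i) 100 = false) : φ (hw w) ≠ 1 := by
  intro he
  have : allB (fun i => Nat.beq (t1 w i) i) 100 = true := by
    rw [allB_iff]
    intro i hi
    have h1 := φ_hw_apply w ⟨i, hi⟩
    rw [he] at h1
    change i = t1 w i at h1
    rw [← h1]
    exact Nat.beq_refl i
  rw [this] at h
  exact Bool.noConfusion h

/-- the product of a word with its conjugate -/
def cj (r c : List ℕ) : List ℕ := r ++ (c ++ (r ++ iw c))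

theorem hw_cj (r c : List ℕ) : φ (hw (cj r c)) = φ (hw r) * (φ (hw c) * φ (hw r) * (φ (hw c))⁻¹) := by
  unfold cj
  rw [hw_append, hw_append, hw_append, hw_iw]
  simp only [map_mul, map_inv, mul_assoc]

theorem Q_normal {g q : Perm (Fin 100)} (hg : g ∈ autG 100 adjA) (hq : q ∈ Q) : g * q * g⁻¹ ∈ Q := by
  rw [mem_Q_iff] at hq ⊢
  refine ⟨mul_mem (mul_mem hg hq.1) (inv_mem hg), ?_⟩
  rw [map_mul, map_mul, hq.2, map_inv, mul_one, mul_inv_cancel]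

theorem Z_not_mem : Z ∉ Q := by
  rw [mem_Q_iff]
  intro h
  have := h.2
  rw [sign_Z] at this
  exact absurd this (by decide)

/-- the conclusion for the involutions -/
def Inv5 (t : Perm (Fin 100)) : Prop := t ∈ Q ∧ ∃ c ∈ Q, ∃ w ∈ Q, t * (c * t * c⁻¹) ≠ 1 ∧ (t * (c * t * c⁻¹)) ^ 5 = 1 ∧
  w ≠ 1 ∧ w ^ 11 = 1 ∧ (t * (c * t * c⁻¹)) * w * (t * (c * t * c⁻¹))⁻¹ = w ^ 9

/-- inverts an element of order `r` -/
def InvR (r : ℕ) (t : Perm (Fin 100)) : Prop := ∃ c ∈ Q, t * (c * t * c⁻¹) ≠ 1 ∧ (t * (c * t * c⁻¹)) ^ r = 1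

theorem Inv5.conj {t g : Perm (Fin 100)} (hg : g ∈ autG 100 adjA) (h : Inv5 t) : Inv5 (g * t * g⁻¹) := by
  obtain ⟨h0, c, hc, w, hw, h1, h2, h3, h4, h5⟩ := h
  have e : g * t * g⁻¹ * (g * c * g⁻¹ * (g * t * g⁻¹) * (g * c * g⁻¹)⁻¹) = g * (t * (c * t * c⁻¹)) * g⁻¹ := by group
  refine ⟨Q_normal hg h0, g * c * g⁻¹, Q_normal hg hc, g * w * g⁻¹, Q_normal hg hw, ?_, ?_, ?_, ?_, ?_⟩
  · rw [e]; exact fun h => h1 (conj_eq_one_iff.1 h)
  · rw [e, conj_pow, h2]; group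
  · exact fun h => h3 (conj_eq_one_iff.1 h)
  · rw [conj_pow, h4]; group
  · rw [e, conj_pow, ← h5]; group

theorem InvR.conj {r : ℕ} {t g : Perm (Fin 100)} (hg : g ∈ autG 100 adjA) (h : InvR r t) : InvR r (g * t * g⁻¹) := by
  obtain ⟨c, hc, h1, h2⟩ := h
  have e : g * t * g⁻¹ * (g * c * g⁻¹ * (g * t * g⁻¹) * (g * c * g⁻¹)⁻¹) = g * (t * (c * t * c⁻¹)) * g⁻¹ := by group
  refine ⟨g * c * g⁻¹, Q_normal hg hc, ?_, ?_⟩
  · rw [e]; exact fun h => h1 (conj_eq_one_iff.1 h)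
  · rw [e, conj_pow, h2]; group

theorem inv5_a : Inv5 (φ Cfsg.Agent.HN.Syl.a) := by
  rw [← Cfsg.Agent.HN.Syl.hw_a]
  have hc : φ (hw [0, 2, 0]) ∈ Q := mem_Q_of (by decide +kernel)
  have hw' : φ (hw w11) ∈ Q := mem_Q_of (by decide +kernel)
  refine ⟨mem_Q_of (by decide +kernel), _, hc, _, hw', ?_, ?_, ?_, ?_, ?_⟩
  · rw [← hw_cj]; exact w_ne_one (by decide +kernel)
  · rw [← hw_cj]; exact wpow_one (by decide +kernel)
  · exact w_ne_one (by decide +kernel)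
  · exact wpow_one (by decide +kernel)
  · rw [← hw_cj, mul_inv_eq_iff_eq_mul]
    have h : allB (fun i => Nat.beq (t1 (cj [2, 2, 2] [0, 2, 0]) (t1 w11 i)) (itw w11 9 (t1 (cj [2, 2, 2] [0, 2, 0]) i))) 100
      = true := by decide +kernel
    refine ext_nat fun i => ?_
    rw [Perm.mul_apply, Perm.mul_apply, φ_hw_apply, φ_hw_apply, itw_spec, φ_hw_apply]
    exact Nat.eq_of_beq_eq_true (of_allB h i)

theorem invR_x : InvR 7 (φ gx) := by
  rw [← hw_x]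
  have hc : φ (hw [2, 2, 1, 2, 2]) ∈ Q := mem_Q_of (by decide +kernel)
  refine ⟨_, hc, ?_, ?_⟩
  · rw [← hw_cj]; exact w_ne_one (by decide +kernel)
  · rw [← hw_cj]; exact wpow_one (by decide +kernel)

theorem invR_d : InvR 7 (φ Cfsg.Agent.HN.Syl.d) := by
  have hc : φ (hw [3, 3, 0, 3, 3]) ∈ Q := mem_Q_of (by decide +kernel)
  refine ⟨_, hc, ?_, ?_⟩
  · unfold Cfsg.Agent.HN.Syl.d
    rw [← hw_cj]; exact w_ne_one (by decide +kernel)
  · unfold Cfsg.Agent.HN.Syl.d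
    rw [← hw_cj]; exact wpow_one (by decide +kernel)

theorem invR_z : InvR 3 Z := by
  rw [← φ_gz, ← hw_z]
  have hc : φ (hw [2]) ∈ Q := mem_Q_of (by decide +kernel)
  refine ⟨_, hc, ?_, ?_⟩
  · rw [← hw_cj]; exact w_ne_one (by decide +kernel)
  · rw [← hw_cj]; exact wpow_one (by decide +kernel)

/-- **involutions** -/
theorem inv_spec {t : Perm (Fin 100)} (ht : t ∈ autG 100 adjA) (h2 : t * t = 1) (h1 : t ≠ 1) :
    Inv5 t ∨ InvR 7 t ∨ (InvR 3 t ∧ ∃ g ∈ autG 100 adjA, t = g * Z * g⁻¹) := by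
  rw [← range_eq] at ht
  obtain ⟨v, rfl⟩ := ht
  have hv : v ^ 2 = 1 ∨ v ^ 2 = τ := by
    rw [← φ_eq_one_iff, map_pow, pow_two, h2]
  have hmem : ∀ g : H0, φ g ∈ autG 100 adjA := fun g => by rw [← range_eq]; exact ⟨g, rfl⟩
  have hcon : ∀ u : H0, IsConj u v → ∃ g ∈ autG 100 adjA, φ v = g * φ u * g⁻¹ := by
    intro u hu
    obtain ⟨c, hc⟩ := isConj_iff.1 hu
    exact ⟨φ c, hmem c, by rw [← hc, map_mul, map_mul, map_inv]⟩
  rcases Cfsg.Agent.HN.Syl.sq_cases hv with h | h | h | h | h | h | h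
  · exact absurd (by rw [h, map_one]) h1
  · exact absurd (by rw [h, φ_τ]) h1
  · obtain ⟨g, hg, he⟩ := hcon _ h
    rw [he]
    exact Or.inl (inv5_a.conj hg)
  · obtain ⟨g, hg, he⟩ := hcon _ h
    rw [he, map_mul, φ_τ, mul_one]
    exact Or.inl (inv5_a.conj hg)
  · obtain ⟨g, hg, he⟩ := hcon _ h
    rw [he]
    exact Or.inr (Or.inl (invR_x.conj hg))
  · obtain ⟨g, hg, he⟩ := hcon _ h
    rw [he, φ_gz]
    exact Or.inr (Or.inr ⟨invR_z.conj hg, g, hg, rfl⟩)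
  · obtain ⟨g, hg, he⟩ := hcon _ h
    rw [he]
    exact Or.inr (Or.inl (invR_d.conj hg))

end Cfsg.Agent.H344.RR.HSF
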